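import Mathlib

set_option autoImplicit false

namespace Cfsg.Agent.Lib.Helper9.Hup1

open Polynomial

universe u

/-- A linear endomorphism of a nontrivial finite `𝔽_p`-space with `T ^ (p - 1) = 1` has an
eigenvector. -/
theorem exists_eigenvector_of_pow_eq_one (p : ℕ) [Fact p.Prime] {M : Type u} [AddCommGroup M]
    [Module (ZMod p) M] [Finite M] [Nontrivial M]
    (T : Module.End (ZMod p) M) (hT : T ^ (p - 1) = 1) :
    ∃ (μ : ZMod p) (v : M), v ≠ 0 ∧ T v = μ • v := by
  have hp : p.Prime := Fact.out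
  have hint : IsIntegral (ZMod p) T := Algebra.IsIntegral.isIntegral T
  have hdvd : minpoly (ZMod p) T ∣ (X ^ (p - 1) - 1 : (ZMod p)[X]) :=
    minpoly.dvd _ _ (by simp [hT])
  have hdvd2 : (X ^ (p - 1) - 1 : (ZMod p)[X]) ∣ X ^ p - X := by
    refine ⟨X, ?_⟩
    have h1 : (X : (ZMod p)[X]) ^ p = X ^ (p - 1) * X := by
      rw [← pow_succ, Nat.sub_add_cancel hp.one_le]
    rw [h1]
    ring
  have hne : (X ^ p - X : (ZMod p)[X]) ≠ 0 := FiniteField.X_pow_card_sub_X_ne_zero _ hp.one_lt
  have hsplit : (X ^ p - X : (ZMod p)[X]).Splits := by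
    rw [splits_iff_card_roots]
    have h1 := FiniteField.roots_X_pow_card_sub_X (ZMod p)
    rw [ZMod.card] at h1
    rw [h1, FiniteField.X_pow_card_sub_X_natDegree_eq _ hp.one_lt]
    simp [ZMod.card]
  have hs : (minpoly (ZMod p) T).Splits := hsplit.of_dvd hne (hdvd.trans hdvd2)
  obtain ⟨μ, hμ⟩ := hs.exists_eval_eq_zero (minpoly.degree_pos hint).ne'
  have h3 := Module.End.hasEigenvalue_of_isRoot hμ
  obtain ⟨v, hv⟩ := h3.exists_hasEigenvector
  exact ⟨μ, v, hv.2, hv.apply_eq_smul⟩

/-- An endomorphism `φ` of a nontrivial finite elementary abelian `p`-group with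
`φ^(p-1) = id` maps some nontrivial element to a power of itself. -/
theorem exists_eigen (p : ℕ) [Fact p.Prime] {N : Type u} [CommGroup N] [Finite N] [Nontrivial N]
    (hexp : ∀ x : N, x ^ p = 1) (φ : N →* N) (hφ : ∀ x, φ^[p - 1] x = x) :
    ∃ (c : ℕ) (x : N), x ≠ 1 ∧ φ x = x ^ c := by
  have hp : p.Prime := Fact.out
  have hexp' : ∀ x : Additive N, p • x = 0 := fun x => by
    induction x using Additive.rec with
    | ofMul x => rw [← ofMul_pow, hexp]; rfl
  let inst : Module (ZMod p) (Additive N) := AddCommGroup.zmodModule (n := p) hexp'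
  let T : Module.End (ZMod p) (Additive N) :=
    AddMonoidHom.toZModLinearMap p (MonoidHom.toAdditive φ)
  have hTapp : ∀ (k : ℕ) (x : N), (T ^ k : Additive N →ₗ[ZMod p] Additive N) (Additive.ofMul x)
      = Additive.ofMul (φ^[k] x) := by
    intro k
    induction k with
    | zero => intro x; simp
    | succ k ih =>
      intro x
      rw [pow_succ, Module.End.mul_apply, Function.iterate_succ_apply]
      have : T (Additive.ofMul x) = Additive.ofMul (φ x) := rfl
      rw [this, ih]
  have hT : T ^ (p - 1) = 1 := by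
    apply LinearMap.ext
    intro x
    induction x using Additive.rec with
    | ofMul x => rw [hTapp, hφ]; rfl
  obtain ⟨μ, v, hv, hTv⟩ := exists_eigenvector_of_pow_eq_one p T hT
  refine ⟨μ.val, Additive.toMul v, ?_, ?_⟩
  · intro h
    apply hv
    exact h
  · have h1 : T v = Additive.ofMul (φ (Additive.toMul v)) := rfl
    have h2 : μ • v = μ.val • v := by
      conv_lhs => rw [← ZMod.natCast_zmod_val μ]
      rw [Nat.cast_smul_eq_nsmul]
    rw [h1, h2] at hTv
    have h3 : μ.val • v = Additive.ofMul ((Additive.toMul v) ^ μ.val) := rfl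
    rw [h3] at hTv
    exact Additive.ofMul.injective hTv

/-- Subgroup version: if `a ^ (p - 1)` centralizes the nontrivial normal elementary abelian
`p`-subgroup `N`, then `a` maps some nontrivial element of `N` to a power of itself. -/
theorem exists_eigen_subgroup {G : Type u} [Group G] [Finite G] (p : ℕ) [Fact p.Prime]
    (N : Subgroup G) [N.Normal] (hne : N ≠ ⊥)
    (hcomm : ∀ x ∈ N, ∀ y ∈ N, x * y = y * x) (hexp : ∀ x ∈ N, x ^ p = 1) (a : G)
    (ha : ∀ x ∈ N, a ^ (p - 1) * x * (a ^ (p - 1))⁻¹ = x) :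
    ∃ (c : ℕ), ∃ x ∈ N, x ≠ 1 ∧ a * x * a⁻¹ = x ^ c := by
  let instC : CommGroup N :=
    { (inferInstance : Group N) with
      mul_comm := fun x y => Subtype.ext (hcomm x x.2 y y.2) }
  have hnt : Nontrivial N := (Subgroup.nontrivial_iff_ne_bot N).mpr hne
  let φ : N →* N := (MulAut.conjNormal a : MulAut N).toMonoidHom
  have hφ0 : ∀ x : N, ((φ x : N) : G) = a * x * a⁻¹ := fun x => MulAut.conjNormal_apply a x
  have hiter : ∀ (k : ℕ) (x : N), ((φ^[k] x : N) : G) = a ^ k * x * (a ^ k)⁻¹ := by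
    intro k
    induction k with
    | zero => intro x; simp
    | succ k ih =>
      intro x
      rw [Function.iterate_succ_apply, ih, hφ0, pow_succ]
      group
  have hφ : ∀ x : N, φ^[p - 1] x = x := by
    intro x
    apply Subtype.ext
    rw [hiter, ha x x.2]
  have hexp' : ∀ x : N, x ^ p = 1 := fun x => Subtype.ext (by
    rw [Subgroup.coe_pow, hexp x x.2]; rfl)
  obtain ⟨c, x, hx, hcx⟩ := exists_eigen (N := N) p hexp' φ hφ
  refine ⟨c, x, x.2, fun h => hx (Subtype.ext h), ?_⟩
  rw [← hφ0, hcx, Subgroup.coe_pow]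

end Cfsg.Agent.Lib.Helper9.Hup1
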