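import Mathlib
import Cfsg.Agent.Lib.Helper9.SS3

set_option autoImplicit false

namespace Cfsg.Agent.Lib.Helper9.Hup2

open Subgroup Cfsg.Agent.H9 Cfsg.Agent.Lib.Helper9.SS3
open scoped commutatorElement

universe u v

/-- The subgroup generated by the commutators and the `m`-th powers. -/
def dsub (m : ℕ) (H : Type u) [Group H] : Subgroup H :=
  Subgroup.closure ({x | ∃ a b : H, x = ⁅a, b⁆} ∪ {x | ∃ a : H, x = a ^ m})

theorem commutator_mem_dsub (m : ℕ) {H : Type u} [Group H] (a b : H) : ⁅a, b⁆ ∈ dsub m H :=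
  Subgroup.subset_closure (Or.inl ⟨a, b, rfl⟩)

theorem pow_mem_dsub (m : ℕ) {H : Type u} [Group H] (a : H) : a ^ m ∈ dsub m H :=
  Subgroup.subset_closure (Or.inr ⟨a, rfl⟩)

theorem map_dsub_le (m : ℕ) {H : Type u} {H' : Type v} [Group H] [Group H'] (f : H →* H') :
    (dsub m H).map f ≤ dsub m H' := by
  rw [Subgroup.map_le_iff_le_comap, dsub, Subgroup.closure_le]
  rintro x (⟨a, b, rfl⟩ | ⟨a, rfl⟩)
  · show f ⁅a, b⁆ ∈ dsub m H'
    rw [map_commutatorElement]; exact commutator_mem_dsub m _ _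
  · show f (a ^ m) ∈ dsub m H'
    rw [map_pow]; exact pow_mem_dsub m _

theorem dsub_le_ker (m : ℕ) {H : Type u} {A : Type v} [Group H] [Group A] (f : H →* A)
    (hc : ∀ a b : A, a * b = b * a) (he : ∀ a : A, a ^ m = 1) : dsub m H ≤ f.ker := by
  rw [dsub, Subgroup.closure_le]
  rintro x (⟨a, b, rfl⟩ | ⟨a, rfl⟩)
  · show f ⁅a, b⁆ = 1
    rw [map_commutatorElement, commutatorElement_def, hc (f a) (f b)]; group
  · show f (a ^ m) = 1
    rw [map_pow, he]

/-- In a finite supersolvable group, the `p'`-elements of the subgroup generated by commutators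
and `(p-1)`-th powers centralize every normal `p`-subgroup. -/
theorem commute_of_mem_dsub (p : ℕ) [hp : Fact p.Prime] : ∀ (n : ℕ) (H : Type u) [Group H]
    [Finite H], Nat.card H = n → Cfsg.IsSupersolvable H → ∀ (Q : Subgroup H) [Q.Normal],
    IsPGroup p Q → ∀ x ∈ dsub (p - 1) H, (orderOf x).Coprime p → ∀ y ∈ Q, x * y = y * x := by
  intro n
  induction n using Nat.strong_induction_on with
  | _ n ih =>
  intro H _ _ hcard hss Q hQn hQ x hx hxo y hy
  by_cases hQb : Q = ⊥
  · rw [hQb, Subgroup.mem_bot] at hy; rw [hy]; simp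
  have hss' := hss
  rw [isSupersolvable_iff] at hss'
  obtain ⟨Z, hZQ, hZn, hZp⟩ := ssChain_exists_normal_prime_le hss' Q hQn hQb (by simp)
  have hZcard : Nat.card Z = p := by
    have hZpg : IsPGroup p Z := hQ.to_le hZQ
    obtain ⟨k, hk⟩ := IsPGroup.iff_card.mp hZpg
    rw [hk] at hZp ⊢
    have h1 : p ∣ p ^ k := by
      rcases Nat.eq_zero_or_pos k with h0 | h0
      · rw [h0, pow_zero] at hZp; exact absurd hZp Nat.not_prime_one
      · exact dvd_pow_self p h0.ne'
    rcases (Nat.dvd_prime hZp).mp h1 with h2 | h2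
    · exact absurd h2 hp.out.one_lt.ne'
    · exact h2.symm
  have hZcyc : IsCyclic Z := isCyclic_of_prime_card hZcard
  have hxZ : ∀ z ∈ Z, x * z * x⁻¹ = z := by
    let φ : H →* MulAut Z := MulAut.conjNormal
    have hfin : Finite (MulAut Z) :=
      Finite.of_injective (fun a : MulAut Z => (a : Z → Z)) DFunLike.coe_injective
    have hker : dsub (p - 1) H ≤ φ.ker := by
      apply dsub_le_ker (p - 1) φ
      · intro a b
        apply (IsCyclic.mulAutMulEquiv Z).injective
        rw [map_mul, map_mul, mul_comm]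
      · intro a
        have h1 := IsCyclic.card_mulAut Z
        rw [hZcard, Nat.totient_prime hp.out] at h1
        rw [← h1]
        exact pow_card_eq_one'
    intro z hz
    have h1 : φ x = 1 := hker hx
    have h2 := congrArg (fun α : MulAut Z => ((α ⟨z, hz⟩ : Z) : H)) h1
    simpa [φ, MulAut.conjNormal_apply] using h2
  have hlt : Nat.card (H ⧸ Z) < n := by
    have h1 : Nat.card H = Nat.card (H ⧸ Z) * Nat.card Z :=
      Subgroup.card_eq_card_quotient_mul_card_subgroup _
    have h3 : 0 < Nat.card (H ⧸ Z) := Nat.card_pos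
    have h4 := hp.out.two_le
    rw [← hcard, h1, hZcard]
    nlinarith
  have hq := ih _ hlt (H ⧸ Z) rfl
    (isSupersolvable_of_surjective (QuotientGroup.mk' Z) (QuotientGroup.mk'_surjective Z) hss)
    (Q.map (QuotientGroup.mk' Z)) (hQ.map _) (QuotientGroup.mk' Z x)
    (map_dsub_le _ _ ⟨x, hx, rfl⟩)
    (Nat.Coprime.coprime_dvd_left (orderOf_map_dvd (QuotientGroup.mk' Z) x) hxo)
    (QuotientGroup.mk' Z y) ⟨y, hy, rfl⟩
  have hz : (y * x)⁻¹ * (x * y) ∈ Z := by
    rw [← QuotientGroup.eq]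
    exact hq.symm
  obtain ⟨z, hzdef⟩ : ∃ z, z = (y * x)⁻¹ * (x * y) := ⟨_, rfl⟩
  rw [← hzdef] at hz
  have h3 : x * y * x⁻¹ = y * z := by
    have h0 : x * y = y * x * z := by rw [hzdef]; group
    rw [h0]
    calc y * x * z * x⁻¹ = y * (x * z * x⁻¹) := by group
      _ = y * z := by rw [hxZ z hz]
  have h4 : ∀ k : ℕ, x ^ k * y * (x ^ k)⁻¹ = y * z ^ k := by
    intro k
    induction k with
    | zero => simp
    | succ k ih2 =>
      calc x ^ (k + 1) * y * (x ^ (k + 1))⁻¹ = x * (x ^ k * y * (x ^ k)⁻¹) * x⁻¹ := by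
            rw [pow_succ']; group
        _ = x * (y * z ^ k) * x⁻¹ := by rw [ih2]
        _ = (x * y * x⁻¹) * (x * z * x⁻¹) ^ k := by rw [conj_pow]; group
        _ = y * z * z ^ k := by rw [h3, hxZ z hz]
        _ = y * z ^ (k + 1) := by rw [pow_succ']; group
  have h5 := h4 (orderOf x)
  rw [pow_orderOf_eq_one] at h5
  have h6 : z ^ orderOf x = 1 := by simpa using h5.symm
  have h7 : z ^ p = 1 := by
    have h := pow_card_eq_one' (G := Z) (x := ⟨z, hz⟩)
    rw [hZcard] at h
    exact congrArg Subtype.val h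
  have h8 : z = 1 := by
    have d1 : orderOf z ∣ orderOf x := orderOf_dvd_of_pow_eq_one h6
    have d2 : orderOf z ∣ p := orderOf_dvd_of_pow_eq_one h7
    have d3 : orderOf z ∣ 1 := by
      rw [← Nat.Coprime.gcd_eq_one hxo]; exact Nat.dvd_gcd d1 d2
    exact orderOf_eq_one_iff.mp (Nat.dvd_one.mp d3)
  rw [h8, mul_one] at h3
  calc x * y = x * y * x⁻¹ * x := by group
    _ = y * x := by rw [h3]

end Cfsg.Agent.Lib.Helper9.Hup2
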