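import Mathlib
import Cfsg.Agent.Lib.Helper9.Hup1
import Cfsg.Agent.Lib.Helper9.Hup2
import Cfsg.Agent.Lib.Helper9.SS7
import Cfsg.Agent.Lib.Helper9.CS2
import Cfsg.Agent.S0580

set_option autoImplicit false

namespace Cfsg.Agent.Lib.Helper9.Hup3

open Subgroup Cfsg.Agent.H9 Cfsg.Agent.Lib.Helper9.SS3 Cfsg.Agent.Lib.Helper9.SS7
  Cfsg.Agent.Lib.Helper9.Hup1 Cfsg.Agent.Lib.Helper9.Hup2
open scoped commutatorElement Pointwise

universe u

/-- The Sylow subgroup for the largest prime is normal when all maximal subgroups have prime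
index. -/
theorem sylow_normal_of_coatom_prime {G : Type u} [Group G] [Finite G]
    (h : ∀ M : Subgroup G, IsCoatom M → M.index.Prime) (p : ℕ) [Fact p.Prime]
    (hpmax : ∀ q : ℕ, q.Prime → q ∣ Nat.card G → q ≤ p) (P : Sylow p G) :
    (P : Subgroup G).Normal := by
  have hp : p.Prime := Fact.out
  rw [← Subgroup.normalizer_eq_top_iff]
  by_contra hnt
  obtain ⟨M, hM, hNM⟩ := (eq_top_or_exists_le_coatom _).resolve_left hnt
  have hq := h M hM
  have hmod := Cfsg.Agent.S0580.index_modEq_one p P M hNM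
  have hle : M.index ≤ p := hpmax _ hq (Subgroup.index_dvd_card M)
  unfold Nat.ModEq at hmod
  rw [Nat.mod_eq_of_lt hp.one_lt] at hmod
  have h2 := hq.two_le
  rcases Nat.lt_or_ge M.index p with hlt | hge
  · rw [Nat.mod_eq_of_lt hlt] at hmod
    omega
  · have : M.index = p := le_antisymm hle hge
    rw [this, Nat.mod_self] at hmod
    omega

/-- A minimal normal subgroup of `G` inside a normal `p`-subgroup `P` is central in `P` and of
exponent `p`. -/
theorem minimal_normal_in_pgroup {G : Type u} [Group G] [Finite G] (p : ℕ) [Fact p.Prime]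
    (P : Subgroup G) [P.Normal] (hP : IsPGroup p P) (N : Subgroup G) [N.Normal] (hNP : N ≤ P)
    (hne : N ≠ ⊥) (hmin : ∀ N' : Subgroup G, N'.Normal → N' ≤ N → N' = ⊥ ∨ N' = N) :
    N ≤ centralizer (P : Set G) ∧ ∀ x ∈ N, x ^ p = 1 := by
  have hp : p.Prime := Fact.out
  have hcen : N ≤ centralizer (P : Set G) := by
    obtain ⟨y, hyN, hy1, hyc⟩ := exists_ne_one_mem_centralizer p P N hP hNP hne
    have hn : (N ⊓ centralizer (P : Set G)).Normal := inferInstance
    rcases hmin _ hn inf_le_left with h | h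
    · exfalso
      apply hy1
      have : y ∈ N ⊓ centralizer (P : Set G) := ⟨hyN, hyc⟩
      rw [h] at this
      exact this
    · rw [← h]; exact inf_le_right
  refine ⟨hcen, ?_⟩
  have hcomm : ∀ x ∈ N, ∀ y ∈ N, x * y = y * x := fun x hx y hy =>
    ((Subgroup.mem_centralizer_iff.mp (hcen hy)) x (hNP hx))
  -- the subgroup of elements of order dividing p
  let E : Subgroup G :=
    { carrier := {x | x ∈ N ∧ x ^ p = 1}
      one_mem' := ⟨one_mem _, one_pow _⟩
      mul_mem' := by
        rintro a b ⟨ha, ha'⟩ ⟨hb, hb'⟩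
        refine ⟨mul_mem ha hb, ?_⟩
        have hc : Commute a b := hcomm a ha b hb
        rw [hc.mul_pow, ha', hb', one_mul]
      inv_mem' := by
        rintro a ⟨ha, ha'⟩
        exact ⟨inv_mem ha, by rw [inv_pow, ha', inv_one]⟩ }
  have hEn : E.Normal := by
    constructor
    rintro x ⟨hx, hx'⟩ g
    refine ⟨‹N.Normal›.conj_mem x hx g, ?_⟩
    rw [conj_pow, hx']; group
  have hEN : E ≤ N := fun x hx => hx.1
  rcases hmin E hEn hEN with h | h
  · exfalso
    have hNp : IsPGroup p N := hP.to_le hNP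
    have hpN : p ∣ Nat.card N := by
      rcases hNp.card_eq_or_dvd with h' | h'
      · exact absurd (Subgroup.card_eq_one.mp h') hne
      · exact h'
    obtain ⟨x, hx⟩ := exists_prime_orderOf_dvd_card' p hpN
    have hxE : (x : G) ∈ E := by
      refine ⟨x.2, ?_⟩
      rw [← Subgroup.coe_pow, ← hx, pow_orderOf_eq_one]; rfl
    rw [h, Subgroup.mem_bot] at hxE
    have : x = 1 := Subtype.ext hxE
    rw [this, orderOf_one] at hx
    exact hp.one_lt.ne' hx.symm
  · intro x hx
    rw [← h] at hx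
    exact hx.2

theorem card_eq_of_isPGroup_of_prime {G : Type u} [Group G] [Finite G] (p : ℕ) [hp : Fact p.Prime]
    (N : Subgroup G) (hN : IsPGroup p N) (hpr : (Nat.card N).Prime) : Nat.card N = p := by
  obtain ⟨k, hk⟩ := IsPGroup.iff_card.mp hN
  rw [hk] at hpr ⊢
  have h1 : p ∣ p ^ k := by
    rcases Nat.eq_zero_or_pos k with h0 | h0
    · rw [h0, pow_zero] at hpr; exact absurd hpr Nat.not_prime_one
    · exact dvd_pow_self p h0.ne'
  rcases (Nat.dvd_prime hpr).mp h1 with h2 | h2
  · exact absurd h2 hp.out.one_lt.ne'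
  · exact h2.symm

/-- Core of Huppert's theorem: a minimal normal subgroup inside the normal Sylow `p`-subgroup
has order `p` when the quotient by it is supersolvable. -/
theorem card_minimal_normal {G : Type u} [Group G] [Finite G] (p : ℕ) [Fact p.Prime]
    (h : ∀ M : Subgroup G, IsCoatom M → M.index.Prime)
    (P : Sylow p G) [hPn : (P : Subgroup G).Normal] (N : Subgroup G) [hNn : N.Normal]
    (hNP : N ≤ P) (hne : N ≠ ⊥)
    (hmin : ∀ N' : Subgroup G, N'.Normal → N' ≤ N → N' = ⊥ ∨ N' = N)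
    (hQ : Cfsg.IsSupersolvable (G ⧸ N)) : Nat.card N = p := by
  have hp : p.Prime := Fact.out
  obtain ⟨hcen, hexp⟩ := minimal_normal_in_pgroup p P P.2 N hNP hne hmin
  have hcomm : ∀ x ∈ N, ∀ y ∈ N, x * y = y * x := fun x hx y hy =>
    ((Subgroup.mem_centralizer_iff.mp (hcen hy)) x (hNP hx))
  have hNp : IsPGroup p N := P.2.to_le hNP
  by_cases hco : ∃ M : Subgroup G, IsCoatom M ∧ ¬ N ≤ M
  · obtain ⟨M, hM, hNM⟩ := hco
    have hsup : M ⊔ N = ⊤ :=
      hM.2 _ (lt_of_le_of_ne le_sup_left (fun heq => hNM (heq ▸ le_sup_right)))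
    have hinf : (M ⊓ N).Normal := by
      constructor
      intro x hx g
      rw [Subgroup.mem_inf] at hx ⊢
      have hg : g ∈ M ⊔ N := by rw [hsup]; trivial
      obtain ⟨m, hm, n, hn, rfl⟩ := Subgroup.mem_sup_of_normal_right.mp hg
      have h1 : m * n * x * (m * n)⁻¹ = m * x * m⁻¹ := by
        have : n * x = x * n := hcomm n hn x hx.2
        calc m * n * x * (m * n)⁻¹ = m * (n * x) * n⁻¹ * m⁻¹ := by group
          _ = m * x * m⁻¹ := by rw [this]; group
      rw [h1]
      exact ⟨mul_mem (mul_mem hm hx.1) (inv_mem hm), hNn.conj_mem x hx.2 m⟩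
    have hbot : M ⊓ N = ⊥ := by
      rcases hmin _ hinf inf_le_right with h' | h'
      · exact h'
      · exact absurd (h' ▸ inf_le_left) hNM
    have hidx : M.index = Nat.card N := by
      rw [index_eq_relIndex_of_sup_eq_top M N hsup, ← Subgroup.inf_relIndex_right, hbot,
        Subgroup.relIndex_bot_left]
    have hpr : (Nat.card N).Prime := hidx ▸ h M hM
    exact card_eq_of_isPGroup_of_prime p N hNp hpr
  · push Not at hco
    have hstar : ∀ H : Subgroup G, H ⊔ N = ⊤ → H = ⊤ := by
      intro H hH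
      by_contra hne'
      obtain ⟨M, hM, hHM⟩ := (eq_top_or_exists_le_coatom H).resolve_left hne'
      apply hM.1
      rw [eq_top_iff, ← hH]
      exact sup_le hHM (hco M hM)
    obtain ⟨K, hK⟩ := Subgroup.exists_right_complement'_of_coprime (N := (P : Subgroup G))
      P.card_coprime_index
    have hKcard : (Nat.card K).Coprime p := by
      have h1 : (P : Subgroup G).index = Nat.card K := hK.symm.index_eq_card
      rw [← h1]
      exact (Nat.Coprime.symm ((Nat.Prime.coprime_iff_not_dvd hp).mpr P.not_dvd_index))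
    have hPK : (P : Subgroup G) ⊔ K = ⊤ := hK.sup_eq_top
    have hPKd : (P : Subgroup G) ⊓ K = ⊥ := hK.disjoint.eq_bot
    have hdecomp : ∀ g : G, ∃ y ∈ (P : Subgroup G), ∃ k ∈ K, y * k = g := by
      intro g
      have : g ∈ (P : Subgroup G) ⊔ K := by rw [hPK]; trivial
      exact Subgroup.mem_sup_of_normal_left.mp this
    have hnormal : ∀ X : Subgroup G, X ≤ N → (∀ k ∈ K, ∀ x ∈ X, k * x * k⁻¹ ∈ X) →
        X.Normal := by
      intro X hXN hX
      constructor
      intro x hx g
      obtain ⟨y, hy, k, hk, rfl⟩ := hdecomp g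
      have h1 : k * x * k⁻¹ ∈ X := hX k hk x hx
      have h2 : y * (k * x * k⁻¹) = (k * x * k⁻¹) * y :=
        (Subgroup.mem_centralizer_iff.mp (hcen (hXN h1))) y hy
      have h3 : y * k * x * (y * k)⁻¹ = k * x * k⁻¹ := by
        calc y * k * x * (y * k)⁻¹ = y * (k * x * k⁻¹) * y⁻¹ := by group
          _ = k * x * k⁻¹ := by rw [h2]; group
      rw [h3]; exact h1
    -- the centralizer of `P/N`
    let π := QuotientGroup.mk' N
    have hPπn : ((P : Subgroup G).map π).Normal :=
      Subgroup.Normal.map hPn π (QuotientGroup.mk'_surjective N)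
    let C : Subgroup G :=
      (centralizer (((P : Subgroup G).map π : Subgroup (G ⧸ N)) : Set (G ⧸ N))).comap π
    have hCn : C.Normal := Subgroup.Normal.comap inferInstance π
    have hCmem : ∀ x ∈ C, ∀ y ∈ (P : Subgroup G), x⁻¹ * y * x * y⁻¹ ∈ N := by
      intro x hx y hy
      have h1 : π y * π x = π x * π y :=
        (Subgroup.mem_centralizer_iff.mp hx) (π y) ⟨y, hy, rfl⟩
      rw [← QuotientGroup.eq_one_iff]
      show π (x⁻¹ * y * x * y⁻¹) = 1
      rw [map_mul, map_mul, map_mul, map_inv, map_inv, mul_assoc (π x)⁻¹, h1]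
      group
    let L : Subgroup G := K ⊓ C
    have hLK : L ≤ K := inf_le_left
    have hLcop : (Nat.card L).Coprime (Nat.card N) := by
      obtain ⟨k, hk⟩ := IsPGroup.iff_card.mp hNp
      rw [hk]
      exact Nat.Coprime.pow_right k (hKcard.coprime_dvd_left (Subgroup.card_dvd_of_le hLK))
    have hKL : K ≤ normalizer (L : Set G) := by
      intro k hk
      rw [Subgroup.mem_normalizer_iff]
      intro x
      constructor
      · intro hx
        rw [Subgroup.mem_inf] at hx ⊢
        exact ⟨mul_mem (mul_mem hk hx.1) (inv_mem hk), hCn.conj_mem x hx.2 k⟩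
      · intro hx
        rw [Subgroup.mem_inf] at hx ⊢
        refine ⟨?_, ?_⟩
        · have := mul_mem (mul_mem (inv_mem hk) hx.1) hk
          convert this using 1; group
        · have := hCn.conj_mem _ hx.2 k⁻¹
          convert this using 1; group
    have hNc : IsMulCommutative N := ⟨⟨fun a b => Subtype.ext (hcomm a a.2 b b.2)⟩⟩
    have hPL : (P : Subgroup G) ≤ normalizer (L : Set G) ⊔ N := by
      intro y hy
      have hsup : L ⊔ N = (L.map (MulAut.conj y).toMonoidHom) ⊔ N := by
        apply le_antisymm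
        · apply sup_le _ le_sup_right
          intro x hx
          have hn : x⁻¹ * y * x * y⁻¹ ∈ N := hCmem x (Subgroup.mem_inf.mp hx).2 y hy
          have h1 : x = (MulAut.conj y).toMonoidHom x * (x⁻¹ * y * x * y⁻¹)⁻¹ := by
            show x = y * x * y⁻¹ * (x⁻¹ * y * x * y⁻¹)⁻¹
            group
          rw [h1]
          exact mul_mem (Subgroup.mem_sup_left ⟨x, hx, rfl⟩) (Subgroup.mem_sup_right (inv_mem hn))
        · apply sup_le _ le_sup_right
          rintro _ ⟨x, hx, rfl⟩
          have hn : x⁻¹ * y * x * y⁻¹ ∈ N := hCmem x (Subgroup.mem_inf.mp hx).2 y hy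
          have h1 : (MulAut.conj y).toMonoidHom x = x * (x⁻¹ * y * x * y⁻¹) := by
            show y * x * y⁻¹ = x * (x⁻¹ * y * x * y⁻¹)
            group
          rw [h1]
          exact mul_mem (Subgroup.mem_sup_left hx) (Subgroup.mem_sup_right hn)
      have hc2 : (Nat.card (L.map (MulAut.conj y).toMonoidHom)).Coprime (Nat.card N) := by
        rw [Subgroup.card_map_of_injective (MulAut.conj y).injective]; exact hLcop
      obtain ⟨n, hn, hn2⟩ := Cfsg.Agent.Lib.Helper9.CS2.conj_of_sup_eq N L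
        (L.map (MulAut.conj y).toMonoidHom) hsup hLcop hc2
      have hmem : n⁻¹ * y ∈ normalizer (L : Set G) := by
        rw [Subgroup.mem_normalizer_iff]
        intro x
        constructor
        · intro hx
          have h1 : (MulAut.conj y).toMonoidHom x ∈ L.map (MulAut.conj y).toMonoidHom :=
            ⟨x, hx, rfl⟩
          rw [hn2] at h1
          obtain ⟨x', hx', hxx⟩ := h1
          have h2 : n * x' * n⁻¹ = y * x * y⁻¹ := hxx
          have h3 : n⁻¹ * y * x * (n⁻¹ * y)⁻¹ = x' := by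
            calc n⁻¹ * y * x * (n⁻¹ * y)⁻¹ = n⁻¹ * (y * x * y⁻¹) * n := by group
              _ = x' := by rw [← h2]; group
          rw [h3]; exact hx'
        · intro hx
          have h1 : (MulAut.conj n).toMonoidHom (n⁻¹ * y * x * (n⁻¹ * y)⁻¹) ∈
              L.map (MulAut.conj n).toMonoidHom := ⟨_, hx, rfl⟩
          rw [← hn2] at h1
          obtain ⟨x', hx', hxx⟩ := h1
          have h2 : y * x' * y⁻¹ = n * (n⁻¹ * y * x * (n⁻¹ * y)⁻¹) * n⁻¹ := hxx
          have h3 : x' = x := by
            have : y * x' * y⁻¹ = y * x * y⁻¹ := by rw [h2]; group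
            have h4 := mul_right_cancel this
            exact mul_left_cancel h4
          rw [← h3]; exact hx'
      have h5 : y = n * (n⁻¹ * y) := by group
      rw [h5]
      exact mul_mem (Subgroup.mem_sup_right hn) (Subgroup.mem_sup_left hmem)
    have hLn : L.Normal := by
      rw [← Subgroup.normalizer_eq_top_iff]
      apply hstar
      rw [eq_top_iff, ← hPK]
      exact sup_le hPL (hKL.trans le_sup_left)
    have hLP : ∀ x ∈ L, ∀ y ∈ (P : Subgroup G), x * y = y * x := by
      intro x hx y hy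
      have h1 : x * y * x⁻¹ * y⁻¹ ∈ (P : Subgroup G) ⊓ K := by
        rw [Subgroup.mem_inf]
        constructor
        · exact mul_mem (hPn.conj_mem y hy x) (inv_mem hy)
        · apply hLK
          have h2 := hLn.conj_mem x⁻¹ (inv_mem hx) y
          have h3 : x * y * x⁻¹ * y⁻¹ = x * (y * x⁻¹ * y⁻¹) := by group
          rw [h3]; exact mul_mem hx h2
      rw [hPKd, Subgroup.mem_bot] at h1
      calc x * y = (x * y * x⁻¹ * y⁻¹) * (y * x) := by group
        _ = y * x := by rw [h1, one_mul]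
    have hdL : ∀ x ∈ K, x ∈ dsub (p - 1) G → x ∈ L := by
      intro x hxK hxd
      rw [Subgroup.mem_inf]
      refine ⟨hxK, ?_⟩
      show π x ∈ centralizer _
      rw [Subgroup.mem_centralizer_iff]
      rintro _ ⟨y, hy, rfl⟩
      have hco : (orderOf (π x)).Coprime p := by
        apply Nat.Coprime.coprime_dvd_left _ hKcard
        exact (orderOf_map_dvd π x).trans (Subgroup.orderOf_dvd_natCard K hxK)
      exact (commute_of_mem_dsub p _ (G ⧸ N) rfl hQ ((P : Subgroup G).map π) (P.2.map π) (π x)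
        (map_dsub_le _ π ⟨x, hxd, rfl⟩) hco (π y) ⟨y, hy, rfl⟩).symm
    have hpow : ∀ a ∈ K, ∃ c : ℕ, ∀ x ∈ N, a * x * a⁻¹ = x ^ c := by
      intro a ha
      have ha1 : ∀ x ∈ N, a ^ (p - 1) * x * (a ^ (p - 1))⁻¹ = x := by
        intro x hx
        have h1 := hLP (a ^ (p - 1)) (hdL _ (pow_mem ha _) (pow_mem_dsub _ a)) x (hNP hx)
        rw [h1]; group
      obtain ⟨c, x₀, hx₀N, hx₀1, hx₀⟩ := exists_eigen_subgroup p N hne hcomm hexp a ha1
      let E : Subgroup G :=
        { carrier := {x | x ∈ N ∧ a * x * a⁻¹ = x ^ c}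
          one_mem' := ⟨one_mem _, by simp⟩
          mul_mem' := by
            rintro x y ⟨hx, hx'⟩ ⟨hy, hy'⟩
            refine ⟨mul_mem hx hy, ?_⟩
            have hc : Commute x y := hcomm x hx y hy
            rw [hc.mul_pow, ← hx', ← hy']; group
          inv_mem' := by
            rintro x ⟨hx, hx'⟩
            refine ⟨inv_mem hx, ?_⟩
            rw [inv_pow, ← hx']; group }
      have hEN : E ≤ N := fun x hx => hx.1
      have hEn : E.Normal := by
        apply hnormal E hEN
        rintro k hk x ⟨hx, hx'⟩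
        refine ⟨hNn.conj_mem x hx k, ?_⟩
        have hw : ⁅a⁻¹, k⁻¹⁆ ∈ L := by
          apply hdL _ _ (commutator_mem_dsub _ _ _)
          rw [commutatorElement_def]
          exact mul_mem (mul_mem (mul_mem (inv_mem ha) (inv_mem hk)) (inv_mem (inv_mem ha)))
            (inv_mem (inv_mem hk))
        have hwx := hLP _ hw x (hNP hx)
        rw [commutatorElement_def] at hwx
        have h3 : a⁻¹ * k⁻¹ * a⁻¹⁻¹ * k⁻¹⁻¹ * x * (a⁻¹ * k⁻¹ * a⁻¹⁻¹ * k⁻¹⁻¹)⁻¹ = x := by
          rw [hwx]; group
        show a * (k * x * k⁻¹) * a⁻¹ = (k * x * k⁻¹) ^ c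
        rw [conj_pow, ← hx']
        calc a * (k * x * k⁻¹) * a⁻¹
            = k * a * (a⁻¹ * k⁻¹ * a⁻¹⁻¹ * k⁻¹⁻¹ * x * (a⁻¹ * k⁻¹ * a⁻¹⁻¹ * k⁻¹⁻¹)⁻¹) * a⁻¹ * k⁻¹ := by
              group
          _ = k * (a * x * a⁻¹) * k⁻¹ := by rw [h3]; group
      rcases hmin E hEn hEN with h' | h'
      · exfalso
        apply hx₀1
        have h4 : x₀ ∈ E := ⟨hx₀N, hx₀⟩
        rw [h', Subgroup.mem_bot] at h4
        exact h4
      · refine ⟨c, fun x hx => ?_⟩
        rw [← h'] at hx
        exact hx.2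
    obtain ⟨⟨x₁, hx₁N⟩, hx₁⟩ := (Subgroup.ne_bot_iff_exists_ne_one).mp hne
    have hx₁' : x₁ ≠ 1 := fun h' => hx₁ (Subtype.ext h')
    have hZN : zpowers x₁ ≤ N := (Subgroup.zpowers_le).mpr hx₁N
    have hZn : (zpowers x₁).Normal := by
      apply hnormal _ hZN
      rintro k hk _ ⟨i, rfl⟩
      obtain ⟨c, hc⟩ := hpow k hk
      show k * x₁ ^ i * k⁻¹ ∈ zpowers x₁
      rw [← conj_zpow, hc x₁ hx₁N]
      exact zpow_mem (pow_mem (Subgroup.mem_zpowers x₁) c) i
    rcases hmin _ hZn hZN with h' | h'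
    · exfalso
      apply hx₁'
      have h4 := Subgroup.mem_zpowers x₁
      rw [h', Subgroup.mem_bot] at h4
      exact h4
    · rw [← h', Nat.card_zpowers]
      exact orderOf_eq_prime (hexp x₁ hx₁N) hx₁'

/-- Huppert's theorem: a finite group all of whose maximal subgroups have prime index is
supersolvable. -/
theorem huppert : ∀ (n : ℕ) (G : Type u) [Group G] [Finite G], Nat.card G = n →
    (∀ M : Subgroup G, IsCoatom M → M.index.Prime) → Cfsg.IsSupersolvable G := by
  intro n
  induction n using Nat.strong_induction_on with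
  | _ n ih =>
  intro G _ _ hcard h
  by_cases hone : Nat.card G = 1
  · have : Subsingleton G := (Nat.card_eq_one_iff_unique.mp hone).1
    exact isSupersolvable_of_subsingleton
  have hne : (Nat.card G).primeFactors.Nonempty := by
    obtain ⟨p, hp, hpd⟩ := Nat.exists_prime_and_dvd hone
    exact ⟨p, Nat.mem_primeFactors.mpr ⟨hp, hpd, Nat.card_pos.ne'⟩⟩
  obtain ⟨p, hpdef⟩ : ∃ p, p = (Nat.card G).primeFactors.max' hne := ⟨_, rfl⟩
  have hpmem : p ∈ (Nat.card G).primeFactors := hpdef ▸ Finset.max'_mem _ hne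
  have hp : p.Prime := (Nat.mem_primeFactors.mp hpmem).1
  have hpd : p ∣ Nat.card G := (Nat.mem_primeFactors.mp hpmem).2.1
  have hpmax : ∀ q : ℕ, q.Prime → q ∣ Nat.card G → q ≤ p := fun q hq hqd =>
    hpdef ▸ Finset.le_max' _ q (Nat.mem_primeFactors.mpr ⟨hq, hqd, Nat.card_pos.ne'⟩)
  have : Fact p.Prime := ⟨hp⟩
  obtain ⟨P⟩ : Nonempty (Sylow p G) := inferInstance
  have hPn : (P : Subgroup G).Normal := sylow_normal_of_coatom_prime h p hpmax P
  have hPne : (P : Subgroup G) ≠ ⊥ := P.ne_bot_of_dvd_card hpd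
  -- a minimal normal subgroup inside `P`
  obtain ⟨N, ⟨hNP, hNn, hNb⟩, hNmin⟩ := wellFounded_lt.has_min
    {N : Subgroup G | N ≤ P ∧ N.Normal ∧ N ≠ ⊥} ⟨P, le_refl _, hPn, hPne⟩
  have hmin : ∀ N' : Subgroup G, N'.Normal → N' ≤ N → N' = ⊥ ∨ N' = N := by
    intro N' hN'n hN'N
    by_cases hb : N' = ⊥
    · exact Or.inl hb
    · right
      by_contra hne'
      exact hNmin N' ⟨hN'N.trans hNP, hN'n, hb⟩ (lt_of_le_of_ne hN'N hne')
  have hlt : Nat.card (G ⧸ N) < n := by
    have h1 : Nat.card G = Nat.card (G ⧸ N) * Nat.card N :=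
      Subgroup.card_eq_card_quotient_mul_card_subgroup _
    have h2 : 1 < Nat.card N := by
      have h4 : Nat.card N ≠ 1 := fun h => hNb (Subgroup.card_eq_one.mp h)
      have h5 : 0 < Nat.card N := Nat.card_pos
      omega
    have h3 : 0 < Nat.card (G ⧸ N) := Nat.card_pos
    rw [← hcard, h1]
    nlinarith
  have hq : Cfsg.IsSupersolvable (G ⧸ N) := by
    apply ih _ hlt (G ⧸ N) rfl
    intro Mbar hMbar
    have hco := Cfsg.Agent.S0046.comap_isCoatom N Mbar hMbar
    have hidx := h _ hco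
    rwa [Subgroup.index_comap_of_surjective Mbar (QuotientGroup.mk'_surjective _)] at hidx
  have hNcard : Nat.card N = p := card_minimal_normal p h P N hNP hNb hmin hq
  exact isSupersolvable_of_cyclic_normal N (isCyclic_of_prime_card hNcard) hq

end Cfsg.Agent.Lib.Helper9.Hup3
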