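import Mathlib
import Cfsg.Agent.H9.Supersolvable

set_option autoImplicit false

namespace Cfsg.Agent.Lib.Helper9.ProdCyc

open Subgroup Cfsg.Agent.H9

universe u

/-- Two subgroups of the same order inside a cyclic subgroup coincide. -/
theorem eq_of_card_eq_of_le_cyclic {G : Type u} [Group G] [Finite G] (C : Subgroup G)
    [IsCyclic C] (H₁ H₂ : Subgroup G) (h₁ : H₁ ≤ C) (h₂ : H₂ ≤ C)
    (hc : Nat.card H₁ = Nat.card H₂) : H₁ = H₂ := by
  classical
  have key : ∀ H : Subgroup G, H ≤ C → (H : Set G) = {x | x ∈ C ∧ x ^ Nat.card H = 1} := by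
    intro H hH
    apply Set.eq_of_subset_of_ncard_le
    · intro x hx
      refine ⟨hH hx, ?_⟩
      have h := pow_card_eq_one' (G := H) (x := ⟨x, hx⟩)
      exact congrArg Subtype.val h
    · have hd : 0 < Nat.card H := Nat.card_pos
      have : Fintype C := Fintype.ofFinite C
      have h1 := IsCyclic.card_pow_eq_one_le (α := C) hd
      have h2 : {x : G | x ∈ C ∧ x ^ Nat.card H = 1} = Subtype.val ''
          ((Finset.univ.filter (fun a : C => a ^ Nat.card H = 1) : Finset C) : Set C) := by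
        ext x
        constructor
        · rintro ⟨hx, hx'⟩
          refine ⟨⟨x, hx⟩, ?_, rfl⟩
          simp only [Finset.coe_filter, Finset.mem_univ, true_and, Set.mem_ofPred_eq]
          exact Subtype.ext hx'
        · rintro ⟨a, ha, rfl⟩
          refine ⟨a.2, ?_⟩
          simp only [Finset.coe_filter, Finset.mem_univ, true_and, Set.mem_ofPred_eq] at ha
          exact congrArg Subtype.val ha
      rw [h2, Set.ncard_image_of_injective _ Subtype.val_injective, Set.ncard_coe_finset]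
      calc _ ≤ Nat.card H := h1
        _ = (H : Set G).ncard := (Nat.card_coe_set_eq _)
    · exact Set.toFinite _
  have h3 : (H₁ : Set G) = (H₂ : Set G) := by
    rw [key H₁ h₁, key H₂ h₂, hc]
  exact SetLike.coe_injective h3

theorem step {G : Type u} [Group G] [Finite G]
    (ih : ∀ (Q : Type u) [Group Q] [Finite Q], Nat.card Q < Nat.card G → ∀ A B : Subgroup Q,
      IsCyclic A → IsCyclic B → (∀ g : Q, ∃ a ∈ A, ∃ b ∈ B, g = a * b) → Cfsg.IsSupersolvable Q)
    (A B : Subgroup G) (hA : IsCyclic A) (hB : IsCyclic B) (hle : Nat.card B ≤ Nat.card A)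
    (hAB : ∀ g : G, ∃ a ∈ A, ∃ b ∈ B, g = a * b) : Cfsg.IsSupersolvable G := by
  by_cases hsub : Subsingleton G
  · exact isSupersolvable_of_subsingleton
  obtain ⟨b₀, hb₀⟩ := (Subgroup.isCyclic_iff_exists_zpowers_eq_top B).mp hB
  have hb₀B : b₀ ∈ B := by rw [← hb₀]; exact Subgroup.mem_zpowers b₀
  obtain ⟨A', hA'⟩ : ∃ A' : Subgroup G, A' = A.map (MulAut.conj b₀).toMonoidHom := ⟨_, rfl⟩
  have hA'mem : ∀ x ∈ A, b₀ * x * b₀⁻¹ ∈ A' := by
    intro x hx
    rw [hA']
    exact ⟨x, hx, rfl⟩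
  have hA'mem2 : ∀ y ∈ A', ∃ x ∈ A, y = b₀ * x * b₀⁻¹ := by
    intro y hy
    rw [hA'] at hy
    obtain ⟨x, hx, rfl⟩ := hy
    exact ⟨x, hx, rfl⟩
  have hA'cyc : IsCyclic A' := by
    rw [hA']
    exact isCyclic_of_surjective ((MulAut.conj b₀).toMonoidHom.subgroupMap A)
      (MonoidHom.subgroupMap_surjective _ A)
  have hA'card : Nat.card A' = Nat.card A := by
    rw [hA']; exact Subgroup.card_map_of_injective (MulAut.conj b₀).injective
  have hcommA : ∀ x ∈ A, ∀ y ∈ A, x * y = y * x := by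
    intro x hx y hy
    obtain ⟨g, hg⟩ := (Subgroup.isCyclic_iff_exists_zpowers_eq_top A).mp hA
    rw [← hg] at hx hy
    obtain ⟨i, rfl⟩ := hx
    obtain ⟨j, rfl⟩ := hy
    rw [← zpow_add, ← zpow_add, add_comm]
  -- the intersection is nontrivial
  have hD : A ⊓ A' ≠ ⊥ := by
    intro hbot
    have hinj : Function.Injective (fun z : A × A' => (z.1 : G) * (z.2 : G)) := by
      rintro ⟨x, y⟩ ⟨x', y'⟩ h
      have h1 : (x : G) * y = x' * y' := h
      have h2 : (x' : G)⁻¹ * x = y' * (y : G)⁻¹ := by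
        calc (x' : G)⁻¹ * x = (x' : G)⁻¹ * (x * y) * (y : G)⁻¹ := by group
          _ = y' * (y : G)⁻¹ := by rw [h1]; group
      have h3 : (x' : G)⁻¹ * x ∈ A ⊓ A' := by
        rw [Subgroup.mem_inf]
        exact ⟨mul_mem (inv_mem x'.2) x.2, by rw [h2]; exact mul_mem y'.2 (inv_mem y.2)⟩
      rw [hbot, Subgroup.mem_bot] at h3
      have h4 : (x : G) = x' := by
        calc (x : G) = x' * ((x' : G)⁻¹ * x) := by group
          _ = x' := by rw [h3, mul_one]
      have h5 : (y : G) = y' := by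
        rw [h4] at h1
        exact mul_left_cancel h1
      exact Prod.ext (Subtype.ext h4) (Subtype.ext h5)
    have hsurj : Function.Surjective (fun z : A × B => (z.1 : G) * (z.2 : G)) := by
      intro g
      obtain ⟨a, ha, b, hb, rfl⟩ := hAB g
      exact ⟨(⟨a, ha⟩, ⟨b, hb⟩), rfl⟩
    have hc1 : Nat.card G ≤ Nat.card (A × B) := Nat.card_le_card_of_surjective _ hsurj
    have hc2 : Nat.card G ≤ Nat.card (A × A') := by
      rw [Nat.card_prod] at hc1 ⊢
      rw [hA'card]
      exact hc1.trans (Nat.mul_le_mul_left _ hle)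
    have hbij := hinj.bijective_of_nat_card_le hc2
    obtain ⟨⟨x, y⟩, hxy⟩ := hbij.2 b₀⁻¹
    obtain ⟨a, ha, hya⟩ := hA'mem2 y y.2
    have h1 : (x : G) * (b₀ * a * b₀⁻¹) = b₀⁻¹ := by rw [← hya]; exact hxy
    have h2 : b₀ = (x : G)⁻¹ * a⁻¹ := by
      have h3 : (x : G) * b₀ * a = 1 := by
        calc (x : G) * b₀ * a = (x : G) * (b₀ * a * b₀⁻¹) * b₀ := by group
          _ = 1 := by rw [h1]; group
      calc b₀ = (x : G)⁻¹ * ((x : G) * b₀ * a) * a⁻¹ := by group
        _ = (x : G)⁻¹ * a⁻¹ := by rw [h3]; group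
    have hb₀A : b₀ ∈ A := by rw [h2]; exact mul_mem (inv_mem x.2) (inv_mem ha)
    have hBA : B ≤ A := by rw [← hb₀]; exact (Subgroup.zpowers_le).mpr hb₀A
    have hAtop : A = ⊤ := by
      rw [eq_top_iff]
      intro g _
      obtain ⟨a, ha, b, hb, rfl⟩ := hAB g
      exact mul_mem ha (hBA hb)
    have hAA' : A ≤ A ⊓ A' := by
      intro z hz
      rw [Subgroup.mem_inf]
      refine ⟨hz, ?_⟩
      have h4 := hA'mem (b₀⁻¹ * z * b₀) (mul_mem (mul_mem (inv_mem hb₀A) hz) hb₀A)
      have h5 : b₀ * (b₀⁻¹ * z * b₀) * b₀⁻¹ = z := by group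
      rwa [h5] at h4
    rw [hbot, hAtop] at hAA'
    apply hsub
    constructor
    intro g g'
    have e1 : g ∈ (⊥ : Subgroup G) := hAA' (Subgroup.mem_top g)
    have e2 : g' ∈ (⊥ : Subgroup G) := hAA' (Subgroup.mem_top g')
    rw [Subgroup.mem_bot] at e1 e2
    rw [e1, e2]
  obtain ⟨D, hDdef⟩ : ∃ D : Subgroup G, D = A ⊓ A' := ⟨_, rfl⟩
  rw [← hDdef] at hD
  have hDA : D ≤ A := hDdef ▸ inf_le_left
  have hDA' : D ≤ A' := hDdef ▸ inf_le_right
  -- `b₀` normalizes `D`
  have hconj : D.map (MulAut.conj b₀).toMonoidHom = D := by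
    apply eq_of_card_eq_of_le_cyclic A' _ _ _ hDA'
    · exact Subgroup.card_map_of_injective (MulAut.conj b₀).injective
    · rw [hA']; exact Subgroup.map_mono hDA
  have hb₀N : b₀ ∈ normalizer (D : Set G) := by
    rw [Subgroup.mem_normalizer_iff]
    intro x
    constructor
    · intro hx
      rw [← hconj]
      exact ⟨x, hx, rfl⟩
    · intro hx
      rw [← hconj] at hx
      obtain ⟨x', hx', hxx⟩ := hx
      have h3 : b₀ * x' * b₀⁻¹ = b₀ * x * b₀⁻¹ := hxx
      have h4 : x' = x := mul_left_cancel (mul_right_cancel h3)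
      rw [← h4]; exact hx'
  have hBN : B ≤ normalizer (D : Set G) := by
    rw [← hb₀]; exact (Subgroup.zpowers_le).mpr hb₀N
  have hAN : A ≤ normalizer (D : Set G) := by
    intro a ha
    rw [Subgroup.mem_normalizer_iff]
    intro x
    constructor
    · intro hx
      have h1 : a * x * a⁻¹ = x := by rw [hcommA a ha x (hDA hx)]; group
      rw [h1]; exact hx
    · intro hx
      have hxA : x ∈ A := by
        have h2 := mul_mem (mul_mem (inv_mem ha) (hDA hx)) ha
        have h3 : a⁻¹ * (a * x * a⁻¹) * a = x := by group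
        rwa [h3] at h2
      have h1 : a * x * a⁻¹ = x := by rw [hcommA a ha x hxA]; group
      rwa [h1] at hx
  have hDn : D.Normal := by
    rw [← Subgroup.normalizer_eq_top_iff, eq_top_iff]
    intro g _
    obtain ⟨a, ha, b, hb, rfl⟩ := hAB g
    exact mul_mem (hAN ha) (hBN hb)
  have hDcyc : IsCyclic D := by
    have : IsCyclic (D.subgroupOf A) := Subgroup.isCyclic _
    exact (Subgroup.subgroupOfEquivOfLe hDA).isCyclic.mp this
  -- the quotient
  have hlt : Nat.card (G ⧸ D) < Nat.card G := by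
    have h1 : Nat.card G = Nat.card (G ⧸ D) * Nat.card D :=
      Subgroup.card_eq_card_quotient_mul_card_subgroup _
    have h2 : 1 < Nat.card D := by
      have h4 : Nat.card D ≠ 1 := fun h => hD (Subgroup.card_eq_one.mp h)
      have h5 : 0 < Nat.card D := Nat.card_pos
      omega
    have h3 : 0 < Nat.card (G ⧸ D) := Nat.card_pos
    rw [h1]
    nlinarith
  have hQ : Cfsg.IsSupersolvable (G ⧸ D) := by
    apply ih (G ⧸ D) hlt (A.map (QuotientGroup.mk' D)) (B.map (QuotientGroup.mk' D))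
    · exact isCyclic_of_surjective ((QuotientGroup.mk' D).subgroupMap A)
        (MonoidHom.subgroupMap_surjective _ A)
    · exact isCyclic_of_surjective ((QuotientGroup.mk' D).subgroupMap B)
        (MonoidHom.subgroupMap_surjective _ B)
    · intro q
      obtain ⟨g, rfl⟩ := QuotientGroup.mk'_surjective D q
      obtain ⟨a, ha, b, hb, rfl⟩ := hAB g
      exact ⟨_, ⟨a, ha, rfl⟩, _, ⟨b, hb, rfl⟩, map_mul _ a b⟩
  exact isSupersolvable_of_cyclic_normal D hDcyc hQ

/-- A finite group that is the product of two cyclic subgroups is supersolvable. -/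
theorem prod_cyclic : ∀ (n : ℕ) (G : Type u) [Group G] [Finite G], Nat.card G = n →
    ∀ A B : Subgroup G, IsCyclic A → IsCyclic B → (∀ g : G, ∃ a ∈ A, ∃ b ∈ B, g = a * b) →
    Cfsg.IsSupersolvable G := by
  intro n
  induction n using Nat.strong_induction_on with
  | _ n ih =>
  intro G _ _ hcard A B hA hB hAB
  have ih' : ∀ (Q : Type u) [Group Q] [Finite Q], Nat.card Q < Nat.card G → ∀ A B : Subgroup Q,
      IsCyclic A → IsCyclic B → (∀ g : Q, ∃ a ∈ A, ∃ b ∈ B, g = a * b) →
      Cfsg.IsSupersolvable Q := by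
    intro Q _ _ hQ A' B' hA' hB' hAB'
    exact ih _ (hcard ▸ hQ) Q rfl A' B' hA' hB' hAB'
  by_cases hle : Nat.card B ≤ Nat.card A
  · exact step ih' A B hA hB hle hAB
  · apply step ih' B A hB hA (by omega)
    intro g
    obtain ⟨a, ha, b, hb, h⟩ := hAB g⁻¹
    refine ⟨b⁻¹, inv_mem hb, a⁻¹, inv_mem ha, ?_⟩
    rw [← mul_inv_rev, ← h, inv_inv]

end Cfsg.Agent.Lib.Helper9.ProdCyc
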