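import Mathlib

/-!
# Quadratic pairs on an irreducible module give a 2-dimensional representation

`S1463Stmt` is the statement of S1463 (odd-order irreducible subgroups of `GL₂(F)`, `F` of odd
characteristic `p`, have order prime to `p`) for fields in `Type`.

`core`: assuming `S1463Stmt`, let a finite group `H = ⟨a, b⟩` of odd order act on a finite
additive group `W` of exponent `p` (`p` odd), with `(a - 1)^2 = 0 = (b - 1)^2` on `W`, `a` a
`p`-element, and `W` having no proper nonzero subgroup invariant under `a` and `b`.  Then `a`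
acts trivially on `W`.
-/

set_option autoImplicit false

namespace Cfsg.Agent.Lib.Helper9.QuadOdd1

open Polynomial
open scoped MatrixGroups

/-- The statement of S1463, for fields in `Type`. -/
def S1463Stmt : Prop :=
  ∀ (F : Type) [Field F] (p : ℕ) [Fact p.Prime] [CharP F p] (_ : p ≠ 2)
    (H : Subgroup (GL (Fin 2) F)) [Finite H] (_ : Odd (Nat.card H))
    (_ : ∀ v : Fin 2 → F, v ≠ 0 →
      ∃ g ∈ H, (g : Matrix (Fin 2) (Fin 2) F).mulVec v ∉ Submodule.span F {v}),
    ¬ p ∣ Nat.card H

section ring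

variable {W : Type*} [AddCommGroup W]

theorem theta_comm_left (α β : AddMonoid.End W) (hα : α * α = 0) :
    (α * β + β * α) * α = α * (α * β + β * α) := by
  rw [add_mul, mul_add, mul_assoc β α α, hα, ← mul_assoc α α β, hα]
  simp [mul_assoc]

theorem theta_comm_right (α β : AddMonoid.End W) (hβ : β * β = 0) :
    (α * β + β * α) * β = β * (α * β + β * α) := by
  rw [add_mul, mul_add, mul_assoc α β β, hβ, ← mul_assoc β β α, hβ]
  simp [mul_assoc]

/-- polynomials in `θ` commute with everything commuting with `θ`. -/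
theorem aeval_comm (θ c : AddMonoid.End W) (h : θ * c = c * θ) (q : ℤ[X]) :
    aeval θ q * c = c * aeval θ q := by
  have h1 : aeval θ q ∈ Algebra.adjoin ℤ {θ} := aeval_mem_adjoin_singleton ℤ θ
  have h2 : Algebra.adjoin ℤ {θ} ≤ Subalgebra.centralizer ℤ {c} := by
    apply Algebra.adjoin_le
    intro x hx
    rw [Set.mem_singleton_iff] at hx
    subst hx
    rw [SetLike.mem_coe, Subalgebra.mem_centralizer_iff]
    intro g hg
    rw [Set.mem_singleton_iff] at hg
    subst hg
    exact h.symm
  have h3 := h2 h1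
  rw [Subalgebra.mem_centralizer_iff] at h3
  exact (h3 c rfl).symm

end ring

section field

/-- The linear-algebra half: a pair of unipotent elements `a, b` of an odd-order group acting
`K`-linearly on `W`, with `a v = v`, `a w = w + t v`, `b v = v + w`, `b w = w` (`w = b v - v`),
`W` having no proper nonzero additive subgroup invariant under `a` and `b`, and `a` a nontrivial
`p`-element, is impossible. -/
theorem core_field (hS : S1463Stmt) {p : ℕ} [Fact p.Prime] (hp : p ≠ 2)
    {H : Type*} [Group H] [Finite H] (hodd : Odd (Nat.card H))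
    (K : Type) [Field K] [CharP K p]
    {W : Type*} [AddCommGroup W] [Module K W]
    (ρ : H →* (W →ₗ[K] W)) (a b : H) (ha : ∃ k : ℕ, a ^ p ^ k = 1)
    (t : K) (v : W) (hv : v ≠ 0)
    (h1 : ρ a v = v) (h2 : ρ a (ρ b v - v) = (ρ b v - v) + t • v)
    (h3 : ρ b (ρ b v - v) = ρ b v - v)
    (hne : ρ a ≠ 1)
    (hirr : ∀ U : AddSubgroup W, (∀ u ∈ U, ρ a u ∈ U) → (∀ u ∈ U, ρ b u ∈ U) →
      U = ⊥ ∨ U = ⊤) :
    False := by
  classical
  have hpr : p.Prime := Fact.out
  obtain ⟨w, hw⟩ : ∃ w, w = ρ b v - v := ⟨_, rfl⟩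
  rw [← hw] at h2 h3
  have h4 : ρ b v = v + w := by rw [hw]; abel
  -- the span of v, w is everything
  have hU : ∀ u : W, u ∈ Submodule.span K {v, w} := by
    have hinv := hirr (Submodule.span K {v, w}).toAddSubgroup
      (by
        intro u hu
        rw [Submodule.mem_toAddSubgroup] at hu ⊢
        obtain ⟨x, y, rfl⟩ := Submodule.mem_span_pair.mp hu
        rw [map_add, map_smul, map_smul, h1, h2]
        apply Submodule.mem_span_pair.mpr
        exact ⟨x + y * t, y, by rw [add_smul, smul_add, mul_smul]; abel⟩)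
      (by
        intro u hu
        rw [Submodule.mem_toAddSubgroup] at hu ⊢
        obtain ⟨x, y, rfl⟩ := Submodule.mem_span_pair.mp hu
        rw [map_add, map_smul, map_smul, h4, h3]
        apply Submodule.mem_span_pair.mpr
        exact ⟨x, x + y, by rw [add_smul, smul_add]; abel⟩)
    rcases hinv with h | h
    · exfalso
      have hvU : v ∈ (Submodule.span K {v, w}).toAddSubgroup :=
        Submodule.subset_span (Set.mem_insert _ _)
      rw [h, AddSubgroup.mem_bot] at hvU
      exact hv hvU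
    · intro u
      have : u ∈ (Submodule.span K {v, w}).toAddSubgroup := h ▸ AddSubgroup.mem_top u
      exact this
  -- t • v ≠ 0
  have htv : t • v ≠ 0 := by
    intro h0
    apply hne
    ext u
    obtain ⟨x, y, rfl⟩ := Submodule.mem_span_pair.mp (hU u)
    rw [map_add, map_smul, map_smul, h1, h2, h0, add_zero]
    rfl
  -- linear independence
  have hli : LinearIndependent K ![v, w] := by
    rw [LinearIndependent.pair_iff]
    intro x y hxy
    have h5 := congrArg (ρ a) hxy
    rw [map_add, map_smul, map_smul, h1, h2, map_zero, smul_add, ← add_assoc, hxy, zero_add] at h5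
    have hy : y = 0 := by
      rcases smul_eq_zero.mp h5 with h | h
      · exact h
      · exact absurd h htv
    rw [hy, zero_smul, add_zero] at hxy
    rcases smul_eq_zero.mp hxy with h | h
    · exact ⟨h, hy⟩
    · exact absurd h hv
  have hsp : ⊤ ≤ Submodule.span K (Set.range ![v, w]) := by
    intro u _
    rw [Matrix.range_cons_cons_empty]
    exact hU u
  obtain ⟨bs, hbs⟩ : ∃ bs : Module.Basis (Fin 2) K W, bs = Module.Basis.mk hli hsp := ⟨_, rfl⟩
  -- the matrix representation
  obtain ⟨ρ', hρ'⟩ : ∃ ρ' : H →* GL (Fin 2) K,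
      ρ' = (Units.map ((LinearMap.toMatrixAlgEquiv bs : (W →ₗ[K] W) ≃ₐ[K]
        Matrix (Fin 2) (Fin 2) K) : (W →ₗ[K] W) →* Matrix (Fin 2) (Fin 2) K)).comp
          ρ.toHomUnits := ⟨_, rfl⟩
  have hρ'v : ∀ h : H, ((ρ' h : GL (Fin 2) K) : Matrix (Fin 2) (Fin 2) K) =
      LinearMap.toMatrix bs bs (ρ h) := by
    intro h
    rw [hρ']
    rfl
  have hmul : ∀ (h : H) (u : W), ((ρ' h : GL (Fin 2) K) : Matrix (Fin 2) (Fin 2) K).mulVec
      (bs.repr u) = bs.repr (ρ h u) := by
    intro h u
    rw [hρ'v]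
    exact LinearMap.toMatrix_mulVec_repr bs bs (ρ h) u
  have hfin : Finite ρ'.range :=
    Finite.of_surjective ρ'.rangeRestrict ρ'.rangeRestrict_surjective
  have hodd' : Odd (Nat.card ρ'.range) := hodd.of_dvd_nat (Subgroup.card_range_dvd ρ')
  have hdvd : p ∣ Nat.card ρ'.range := by
    obtain ⟨k, hk⟩ := ha
    have h5 : (ρ' a) ^ p ^ k = 1 := by rw [← map_pow, hk, map_one]
    have h6 : ρ' a ≠ 1 := by
      intro h
      apply hne
      have h7 := hρ'v a
      rw [h, Units.val_one] at h7
      have h8 : LinearMap.toMatrix bs bs (ρ a) = LinearMap.toMatrix bs bs 1 := by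
        rw [← h7]
        exact (LinearMap.toMatrix_one bs).symm
      exact (LinearMap.toMatrix bs bs).injective h8
    obtain ⟨j, hj, hj'⟩ := (Nat.dvd_prime_pow hpr).mp (orderOf_dvd_of_pow_eq_one h5)
    have hj0 : j ≠ 0 := by
      rintro rfl
      rw [pow_zero, orderOf_eq_one_iff] at hj'
      exact h6 hj'
    have h7 : p ∣ orderOf (ρ' a) := by
      rw [hj']
      exact dvd_pow_self p hj0
    exact h7.trans (Subgroup.orderOf_dvd_natCard _ (MonoidHom.mem_range.mpr ⟨a, rfl⟩))
  refine hS K p hp ρ'.range hodd' ?_ hdvd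
  intro u hu
  by_contra hcon
  push Not at hcon
  -- the vector of W with coordinates u
  obtain ⟨ub, hub⟩ : ∃ ub : W, ub = bs.equivFun.symm u := ⟨_, rfl⟩
  have hubr : (bs.repr ub : Fin 2 → K) = u := by
    rw [hub, ← Module.Basis.equivFun_apply, LinearEquiv.apply_symm_apply]
  have hub0 : ub ≠ 0 := by
    intro h
    apply hu
    rw [← hubr, h, map_zero]
    rfl
  have hline : ∀ h : H, ∃ c : K, ρ h ub = c • ub := by
    intro h
    have h5 := hcon (ρ' h) (MonoidHom.mem_range.mpr ⟨h, rfl⟩)
    obtain ⟨c, hc⟩ := Submodule.mem_span_singleton.mp h5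
    refine ⟨c, ?_⟩
    have h6 := hmul h ub
    rw [hubr, ← hc] at h6
    apply bs.equivFun.injective
    rw [Module.Basis.equivFun_apply, Module.Basis.equivFun_apply, ← h6, map_smul, ← hubr]
    rfl
  have hL : ∀ u' : W, u' ∈ Submodule.span K {ub} := by
    have hinv := hirr (Submodule.span K {ub}).toAddSubgroup
      (by
        intro u' hu'
        rw [Submodule.mem_toAddSubgroup] at hu' ⊢
        obtain ⟨x, rfl⟩ := Submodule.mem_span_singleton.mp hu'
        obtain ⟨c, hc⟩ := hline a
        rw [map_smul, hc]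
        exact Submodule.smul_mem _ _ (Submodule.smul_mem _ _ (Submodule.mem_span_singleton_self ub)))
      (by
        intro u' hu'
        rw [Submodule.mem_toAddSubgroup] at hu' ⊢
        obtain ⟨x, rfl⟩ := Submodule.mem_span_singleton.mp hu'
        obtain ⟨c, hc⟩ := hline b
        rw [map_smul, hc]
        exact Submodule.smul_mem _ _ (Submodule.smul_mem _ _ (Submodule.mem_span_singleton_self ub)))
    rcases hinv with h | h
    · exfalso
      have hvU : ub ∈ (Submodule.span K {ub}).toAddSubgroup :=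
        Submodule.mem_span_singleton_self ub
      rw [h, AddSubgroup.mem_bot] at hvU
      exact hub0 hvU
    · intro u'
      have : u' ∈ (Submodule.span K {ub}).toAddSubgroup := h ▸ AddSubgroup.mem_top u'
      exact this
  obtain ⟨x, hx⟩ := Submodule.mem_span_singleton.mp (hL v)
  obtain ⟨y, hy⟩ := Submodule.mem_span_singleton.mp (hL w)
  have h5 : y • v + (-x) • w = 0 := by
    rw [← hx, ← hy, smul_smul, smul_smul, mul_comm y x, neg_mul, neg_smul]
    abel
  have h6 := (LinearIndependent.pair_iff.mp hli) y (-x) h5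
  have hx0 : x = 0 := neg_eq_zero.mp h6.2
  rw [hx0, zero_smul] at hx
  exact hv hx.symm

end field

section main

/-- **Core.** Assuming `S1463Stmt`: a finite group `H = ⟨a, b⟩` of odd order acting on a finite
additive group `W` of exponent `p` (`p` odd) with `(a - 1)^2 = 0 = (b - 1)^2`, `a` a `p`-element
and no proper nonzero subgroup of `W` invariant under `a` and `b`: then `a` acts trivially. -/
theorem core (hS : S1463Stmt) {p : ℕ} [Fact p.Prime] (hp : p ≠ 2)
    {H : Type*} [Group H] [Finite H] (hodd : Odd (Nat.card H))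
    {W : Type*} [AddCommGroup W] [Finite W] (hpW : ∀ w : W, p • w = 0)
    (ρ : H →* AddMonoid.End W) (a b : H) (hab : Subgroup.closure {a, b} = ⊤)
    (ha : ∃ k : ℕ, a ^ p ^ k = 1)
    (hqa : (ρ a - 1) * (ρ a - 1) = 0) (hqb : (ρ b - 1) * (ρ b - 1) = 0)
    (hirr : ∀ U : AddSubgroup W, (∀ u ∈ U, ρ a u ∈ U) → (∀ u ∈ U, ρ b u ∈ U) →
      U = ⊥ ∨ U = ⊤) :
    ρ a = 1 := by
  classical
  by_contra hne
  have hpr : p.Prime := Fact.out
  obtain ⟨α, hα⟩ : ∃ α, α = ρ a - 1 := ⟨_, rfl⟩
  obtain ⟨β, hβ⟩ : ∃ β, β = ρ b - 1 := ⟨_, rfl⟩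
  rw [← hα] at hqa
  rw [← hβ] at hqb
  have hα0 : α ≠ 0 := by rw [hα]; exact sub_ne_zero.mpr hne
  have hρa : ρ a = α + 1 := by rw [hα]; abel
  have hρb : ρ b = β + 1 := by rw [hβ]; abel
  obtain ⟨θ, hθ⟩ : ∃ θ, θ = α * β + β * α := ⟨_, rfl⟩
  have hθα : θ * α = α * θ := by rw [hθ]; exact theta_comm_left α β hqa
  have hθβ : θ * β = β * θ := by rw [hθ]; exact theta_comm_right α β hqb
  have hθa : θ * ρ a = ρ a * θ := by rw [hρa, mul_add, add_mul, hθα]; simp
  have hθb : θ * ρ b = ρ b * θ := by rw [hρb, mul_add, add_mul, hθβ]; simp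
  have hθρ : ∀ h : H, θ * ρ h = ρ h * θ := by
    intro h
    have hh : h ∈ Subgroup.closure {a, b} := hab ▸ Subgroup.mem_top h
    induction hh using Subgroup.closure_induction with
    | mem x hx =>
      rcases hx with rfl | rfl
      · exact hθa
      · exact hθb
    | one => simp
    | mul x y _ _ hx hy => rw [map_mul, ← mul_assoc, hx, mul_assoc, hy, mul_assoc]
    | inv x _ hx =>
      have h1 : ρ x⁻¹ * ρ x = 1 := by rw [← map_mul]; simp
      have h2 : ρ x * ρ x⁻¹ = 1 := by rw [← map_mul]; simp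
      calc θ * ρ x⁻¹ = ρ x⁻¹ * ρ x * θ * ρ x⁻¹ := by rw [h1, one_mul]
        _ = ρ x⁻¹ * (θ * ρ x) * ρ x⁻¹ := by rw [hx]; simp [mul_assoc]
        _ = ρ x⁻¹ * θ := by rw [mul_assoc, mul_assoc, h2, mul_one]
  -- kernels of polynomials in θ are invariant
  have hdich : ∀ q : ℤ[X], aeval θ q = 0 ∨ Function.Injective (aeval θ q : AddMonoid.End W) := by
    intro q
    obtain ⟨g, hg⟩ : ∃ g : AddMonoid.End W, g = aeval θ q := ⟨_, rfl⟩
    rw [← hg]
    have hga : g * ρ a = ρ a * g := hg ▸ aeval_comm θ (ρ a) hθa q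
    have hgb : g * ρ b = ρ b * g := hg ▸ aeval_comm θ (ρ b) hθb q
    have hker := hirr (AddMonoidHom.ker (g : W →+ W))
      (by
        intro u hu
        have hu' : g u = 0 := hu
        have h1 : g (ρ a u) = ρ a (g u) := congrArg (fun f : AddMonoid.End W => f u) hga
        show g (ρ a u) = 0
        rw [h1, hu', map_zero])
      (by
        intro u hu
        have hu' : g u = 0 := hu
        have h1 : g (ρ b u) = ρ b (g u) := congrArg (fun f : AddMonoid.End W => f u) hgb
        show g (ρ b u) = 0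
        rw [h1, hu', map_zero])
    rcases hker with h | h
    · right
      exact (AddMonoidHom.ker_eq_bot_iff (g : W →+ W)).mp h
    · left
      ext u
      have h1 : u ∈ AddMonoidHom.ker (g : W →+ W) := h ▸ AddSubgroup.mem_top u
      exact h1
  have hnt : Nontrivial (AddMonoid.End W) := ⟨⟨α, 0, hα0⟩⟩
  obtain ⟨φ, hφ⟩ : ∃ φ : ℤ[X] →+* AddMonoid.End W,
      φ = ((aeval θ : ℤ[X] →ₐ[ℤ] AddMonoid.End W) : ℤ[X] →+* AddMonoid.End W) := ⟨_, rfl⟩
  have hφa : ∀ q, φ q = aeval θ q := fun q => by rw [hφ]; rfl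
  have hprime : (RingHom.ker φ).IsPrime := by
    refine ⟨?_, ?_⟩
    · intro h
      have h1 : (1 : ℤ[X]) ∈ RingHom.ker φ := h ▸ Submodule.mem_top
      rw [RingHom.mem_ker, map_one] at h1
      exact one_ne_zero h1
    · intro x y hxy
      rw [RingHom.mem_ker, map_mul] at hxy
      rcases hdich x with h | h
      · left
        rw [RingHom.mem_ker, hφa]
        exact h
      · right
        rw [RingHom.mem_ker]
        ext u
        apply h
        have h1 := congrArg (fun f : AddMonoid.End W => f u) hxy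
        rw [hφa x] at h1
        simpa using h1
  have := hprime
  have : Finite (AddMonoid.End W) :=
    Finite.of_injective (fun f : AddMonoid.End W => (f : W → W)) DFunLike.coe_injective
  have : Finite (ℤ[X] ⧸ RingHom.ker φ) :=
    Finite.of_injective _ (RingHom.kerLift_injective φ)
  have : (RingHom.ker φ).IsMaximal :=
    Ideal.Quotient.maximal_of_isField _ (Finite.isField_of_domain _)
  let _ : Field (ℤ[X] ⧸ RingHom.ker φ) := Ideal.Quotient.field _
  let _ : Module (ℤ[X] ⧸ RingHom.ker φ) W := Module.compHom W (RingHom.kerLift φ)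
  have hsm : ∀ (x : ℤ[X] ⧸ RingHom.ker φ) (u : W), x • u = RingHom.kerLift φ x u :=
    fun _ _ => rfl
  have : CharP (ℤ[X] ⧸ RingHom.ker φ) p := by
    rw [CharP.charP_iff_prime_eq_zero hpr]
    have h1 : ((p : ℤ[X]) : ℤ[X] ⧸ RingHom.ker φ) = Ideal.Quotient.mk (RingHom.ker φ) (p : ℤ[X]) :=
      rfl
    have h2 : ((p : ℤ[X] ⧸ RingHom.ker φ)) = Ideal.Quotient.mk (RingHom.ker φ) (p : ℤ[X]) := by
      rw [map_natCast]
    rw [h2, Ideal.Quotient.eq_zero_iff_mem, RingHom.mem_ker, map_natCast]
    ext u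
    simpa using hpW u
  have hfρ : ∀ (x : ℤ[X] ⧸ RingHom.ker φ) (h : H),
      RingHom.kerLift φ x * ρ h = ρ h * RingHom.kerLift φ x := by
    intro x h
    obtain ⟨q, rfl⟩ := Ideal.Quotient.mk_surjective x
    rw [RingHom.kerLift_mk, hφa]
    exact aeval_comm θ (ρ h) (hθρ h) q
  obtain ⟨ρK, hρK⟩ : ∃ ρK : H →* (W →ₗ[ℤ[X] ⧸ RingHom.ker φ] W), ∀ h u, ρK h u = ρ h u := by
    refine ⟨{ toFun := fun h =>
                { toFun := fun u => ρ h u
                  map_add' := map_add (ρ h)
                  map_smul' := fun x u => by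
                    show ρ h (RingHom.kerLift φ x u) = RingHom.kerLift φ x (ρ h u)
                    exact (congrArg (fun f : AddMonoid.End W => f u) (hfρ x h)).symm }
              map_one' := by
                ext u
                simp
              map_mul' := fun h k => by
                ext u
                simp }, fun h u => rfl⟩
  obtain ⟨v, hv, hαv⟩ : ∃ v : W, v ≠ 0 ∧ α v = 0 := by
    have h1 : ∃ u : W, α u ≠ 0 := by
      by_contra hcon
      push Not at hcon
      exact hα0 (by ext u; exact hcon u)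
    obtain ⟨u, hu⟩ := h1
    exact ⟨α u, hu, congrArg (fun f : AddMonoid.End W => f u) hqa⟩
  have hav : ∀ u : W, ρ a u = α u + u := fun u => by rw [hρa]; rfl
  have hbv : ∀ u : W, ρ b u = β u + u := fun u => by rw [hρb]; rfl
  have hββ : ∀ u : W, β (β u) = 0 := fun u => congrArg (fun f : AddMonoid.End W => f u) hqb
  refine core_field hS hp hodd (ℤ[X] ⧸ RingHom.ker φ) ρK a b ha
    (Ideal.Quotient.mk _ X) v hv ?_ ?_ ?_ ?_ ?_
  · rw [hρK, hav, hαv, zero_add]
  · rw [hρK, hρK, hbv, add_sub_cancel_right, hav, hsm, RingHom.kerLift_mk, hφa, aeval_X, hθ]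
    have h1 : (α * β + β * α) v = α (β v) + β (α v) := rfl
    rw [h1, hαv, map_zero, add_zero, add_comm]
  · have hβv : ρ b v - v = β v := by rw [hbv, add_sub_cancel_right]
    rw [hρK, hρK, hβv, hbv, hββ, zero_add]
  · intro h
    apply hne
    ext u
    have h1 := hρK a u
    rw [h] at h1
    exact h1.symm
  · intro U hUa hUb
    exact hirr U (fun u hu => by rw [← hρK]; exact hUa u hu) (fun u hu => by rw [← hρK]; exact hUb u hu)

end main

end Cfsg.Agent.Lib.Helper9.QuadOdd1
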