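import Cfsg.Agent.Lib.Helper9.QuadOdd1

/-!
# Quadratic pairs of `p`-elements acting on a `p`-group (odd order)

`quad_pair`: assuming `S1463Stmt`, in a finite group `G` of odd order, `p` odd, let `P` be a
`p`-subgroup and `a, b` two `p`-elements normalizing `P`, each acting quadratically on `P`
(`[x, a]` commutes with `a` for `x ∈ P`).  Then every `p'`-element of `⟨a, b⟩` centralizes `P`.
-/

set_option autoImplicit false

universe u

namespace Cfsg.Agent.Lib.Helper9.QuadOdd2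

open Cfsg.Agent.Lib.Helper9.QuadOdd1
open scoped commutatorElement

section basic

variable {G : Type*} [Group G]

theorem pow_conj_mem {P : Subgroup G} {a : G} (ha : ∀ x ∈ P, a * x * a⁻¹ ∈ P) (k : ℕ) :
    ∀ x ∈ P, a ^ k * x * (a ^ k)⁻¹ ∈ P := by
  induction k with
  | zero => intro x hx; simpa using hx
  | succ k ih =>
    intro x hx
    have h1 := ha _ (ih x hx)
    have e : a ^ (k + 1) * x * (a ^ (k + 1))⁻¹ = a * (a ^ k * x * (a ^ k)⁻¹) * a⁻¹ := by
      rw [pow_succ']; group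
    rw [e]; exact h1

theorem inv_conj_mem [Finite G] {P : Subgroup G} {a : G} (ha : ∀ x ∈ P, a * x * a⁻¹ ∈ P) :
    ∀ x ∈ P, a⁻¹ * x * a ∈ P := by
  intro x hx
  have hpos : 0 < orderOf a := orderOf_pos a
  have h1 : a ^ (orderOf a - 1) * a = 1 := by
    rw [← pow_succ, Nat.sub_add_cancel hpos, pow_orderOf_eq_one]
  have h2 : a⁻¹ = a ^ (orderOf a - 1) := inv_eq_of_mul_eq_one_left h1
  have h3 := pow_conj_mem ha (orderOf a - 1) x hx
  rw [← h2, inv_inv] at h3
  exact h3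

theorem mem_normalizer_of_conj [Finite G] {P : Subgroup G} {a : G}
    (ha : ∀ x ∈ P, a * x * a⁻¹ ∈ P) : a ∈ Subgroup.normalizer (P : Set G) := by
  rw [Subgroup.mem_normalizer_iff]
  intro x
  refine ⟨ha x, fun h => ?_⟩
  have h1 := inv_conj_mem ha _ h
  have e : a⁻¹ * (a * x * a⁻¹) * a = x := by group
  rw [e] at h1; exact h1

theorem closure_conj_mem [Finite G] {P : Subgroup G} {a b : G} (ha : ∀ x ∈ P, a * x * a⁻¹ ∈ P)
    (hb : ∀ x ∈ P, b * x * b⁻¹ ∈ P) :
    ∀ h ∈ Subgroup.closure ({a, b} : Set G), ∀ x ∈ P, h * x * h⁻¹ ∈ P := by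
  have hle : Subgroup.closure ({a, b} : Set G) ≤ Subgroup.normalizer (P : Set G) := by
    rw [Subgroup.closure_le]
    intro y hy
    rcases hy with rfl | rfl
    · exact mem_normalizer_of_conj ha
    · exact mem_normalizer_of_conj hb
  intro h hh x hx
  exact (Subgroup.mem_normalizer_iff.mp (hle hh) x).mp hx

theorem eq_one_of_pows {p : ℕ} {q : G} {k n : ℕ} (h1 : q ^ p ^ k = 1) (h2 : q ^ n = 1)
    (hn : n.Coprime p) : q = 1 := by
  have h3 : q ^ Nat.gcd (p ^ k) n = 1 := pow_gcd_eq_one.mpr ⟨h1, h2⟩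
  have h4 : Nat.gcd (p ^ k) n = 1 := (Nat.Coprime.pow_left k hn.symm)
  rw [h4, pow_one] at h3
  exact h3

/-- a `p'`-element stabilizing a chain `1 ≤ Q ≤ P` of a `p`-group centralizes `P`. -/
theorem centralizes_of_chain {p : ℕ} {P Q : Subgroup G} (hP : IsPGroup p P)
    (hQP : Q ≤ P) {h : G} (hh : (orderOf h).Coprime p) (hQ : ∀ q ∈ Q, h * q = q * h)
    (hPQ : ∀ x ∈ P, h * x * h⁻¹ * x⁻¹ ∈ Q) : ∀ x ∈ P, h * x = x * h := by
  intro x hx
  obtain ⟨q, hq⟩ : ∃ q, q = h * x * h⁻¹ * x⁻¹ := ⟨_, rfl⟩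
  have hqQ : q ∈ Q := hq ▸ hPQ x hx
  have hqx : h * x * h⁻¹ = q * x := by rw [hq]; group
  have hpow : ∀ n : ℕ, h ^ n * x * (h ^ n)⁻¹ = q ^ n * x := by
    intro n
    induction n with
    | zero => simp
    | succ n ih =>
      have e : h ^ (n + 1) * x * (h ^ (n + 1))⁻¹ = h * (h ^ n * x * (h ^ n)⁻¹) * h⁻¹ := by
        rw [pow_succ']; group
      have hc : h * q ^ n = q ^ n * h := by
        have : Commute h q := hQ q hqQ
        exact (this.pow_right n).eq
      rw [e, ih]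
      calc h * (q ^ n * x) * h⁻¹ = (h * q ^ n) * x * h⁻¹ := by group
        _ = q ^ n * (h * x * h⁻¹) := by rw [hc]; group
        _ = q ^ (n + 1) * x := by rw [hqx, pow_succ]; group
  have h1 := hpow (orderOf h)
  rw [pow_orderOf_eq_one] at h1
  have h2 : q ^ orderOf h = 1 := by
    have : x = q ^ orderOf h * x := by simpa using h1
    exact (mul_eq_right.mp this.symm)
  obtain ⟨k, hk⟩ := hP ⟨q, hQP hqQ⟩
  have hk' : q ^ p ^ k = 1 := by
    have := congrArg Subtype.val hk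
    simpa using this
  have hq1 : q = 1 := eq_one_of_pows hk' h2 hh
  rw [hq1, one_mul] at hqx
  calc h * x = h * x * h⁻¹ * h := by group
    _ = x * h := by rw [hqx]

end basic

section irr

open scoped IsMulCommutative

variable {G : Type*} [Group G]

/-- conjugation action of a subgroup `H` normalizing the abelian subgroup `P`, additively. -/
noncomputable def conjEnd (P H : Subgroup G) [IsMulCommutative P]
    (hH : ∀ h ∈ H, ∀ x ∈ P, h * x * h⁻¹ ∈ P) :
    H →* AddMonoid.End (Additive P) where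
  toFun h := AddMonoidHom.mk' (fun w => Additive.ofMul
      (⟨(h : G) * ((Additive.toMul w : P) : G) * (h : G)⁻¹, hH h h.2 _ (Additive.toMul w).2⟩ : P))
    (by
      intro u v
      apply Additive.toMul.injective
      apply Subtype.ext
      simp [mul_assoc])
  map_one' := by
    refine AddMonoidHom.ext fun w => ?_
    apply Additive.toMul.injective
    apply Subtype.ext
    show ((1 : H) : G) * ((Additive.toMul w : P) : G) * ((1 : H) : G)⁻¹ =
      ((Additive.toMul w : P) : G)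
    simp
  map_mul' := by
    intro h k
    refine AddMonoidHom.ext fun w => ?_
    apply Additive.toMul.injective
    apply Subtype.ext
    show ((h * k : H) : G) * ((Additive.toMul w : P) : G) * ((h * k : H) : G)⁻¹ =
      (h : G) * ((k : G) * ((Additive.toMul w : P) : G) * (k : G)⁻¹) * (h : G)⁻¹
    simp [mul_assoc]

theorem conjEnd_apply (P H : Subgroup G) [IsMulCommutative P]
    (hH : ∀ h ∈ H, ∀ x ∈ P, h * x * h⁻¹ ∈ P) (h : H) (w : Additive P) :
    (((Additive.toMul (conjEnd P H hH h w)) : P) : G) =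
      (h : G) * ((Additive.toMul w : P) : G) * (h : G)⁻¹ := rfl

theorem conj_mem_center_of [Finite G] {P : Subgroup G} {a : G}
    (ha : ∀ x ∈ P, a * x * a⁻¹ ∈ P) :
    ∀ q ∈ P ⊓ Subgroup.centralizer (P : Set G),
      a * q * a⁻¹ ∈ P ⊓ Subgroup.centralizer (P : Set G) := by
  intro q hq
  obtain ⟨hq1, hq2⟩ := Subgroup.mem_inf.mp hq
  refine Subgroup.mem_inf.mpr ⟨ha q hq1, ?_⟩
  rw [Subgroup.mem_centralizer_iff]
  intro y hy
  have hy' : a⁻¹ * y * a ∈ P := inv_conj_mem ha y hy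
  have h1 : a⁻¹ * y * a * q = q * (a⁻¹ * y * a) := (Subgroup.mem_centralizer_iff.mp hq2) _ hy'
  calc y * (a * q * a⁻¹) = a * (a⁻¹ * y * a * q) * a⁻¹ := by group
    _ = a * (q * (a⁻¹ * y * a)) * a⁻¹ := by rw [h1]
    _ = a * q * a⁻¹ * y := by group

/-- the irreducible case: reduce to `core`. -/
theorem step_irr (hS : S1463Stmt) {p : ℕ} [Fact p.Prime] (hp : p ≠ 2) [Finite G]
    (hodd : Odd (Nat.card G)) (P : Subgroup G) (hP : IsPGroup p P)
    (a b : G) (haP : ∀ x ∈ P, a * x * a⁻¹ ∈ P) (hbP : ∀ x ∈ P, b * x * b⁻¹ ∈ P)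
    (ha : ∃ k : ℕ, a ^ p ^ k = 1)
    (hqa : ∀ x ∈ P, a * ⁅x, a⁆ = ⁅x, a⁆ * a) (hqb : ∀ x ∈ P, b * ⁅x, b⁆ = ⁅x, b⁆ * b)
    (hirr : ∀ Q : Subgroup G, Q ≤ P → (∀ x ∈ P, ∀ q ∈ Q, x * q * x⁻¹ ∈ Q) →
      (∀ q ∈ Q, a * q * a⁻¹ ∈ Q) → (∀ q ∈ Q, b * q * b⁻¹ ∈ Q) → Q = ⊥ ∨ Q = P) :
    ∀ x ∈ P, a * x = x * a := by
  classical
  have hpr : p.Prime := Fact.out
  by_cases hbot : P = ⊥
  · intro x hx
    rw [hbot, Subgroup.mem_bot] at hx
    rw [hx]; simp
  have hnt : Nontrivial ↥P := (Subgroup.nontrivial_iff_ne_bot P).mpr hbot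
  -- P is abelian
  have hcomm : ∀ x ∈ P, ∀ y ∈ P, x * y = y * x := by
    have hZ := hirr (P ⊓ Subgroup.centralizer (P : Set G)) inf_le_left
      (by
        intro x hx q hq
        have hq2 := (Subgroup.mem_inf.mp hq).2
        have h1 : x * q = q * x := (Subgroup.mem_centralizer_iff.mp hq2) x hx
        have e : x * q * x⁻¹ = q := by rw [h1]; group
        rw [e]; exact hq)
      (conj_mem_center_of haP) (conj_mem_center_of hbP)
    have hZne : P ⊓ Subgroup.centralizer (P : Set G) ≠ ⊥ := by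
      have hc := hP.center_nontrivial
      obtain ⟨z, hz⟩ := exists_ne (1 : Subgroup.center ↥P)
      intro h0
      have hzm : ((z : ↥P) : G) ∈ P ⊓ Subgroup.centralizer (P : Set G) := by
        refine Subgroup.mem_inf.mpr ⟨(z : ↥P).2, ?_⟩
        rw [Subgroup.mem_centralizer_iff]
        intro y hy
        have h1 := (Subgroup.mem_center_iff.mp z.2) ⟨y, hy⟩
        exact congrArg Subtype.val h1
      rw [h0, Subgroup.mem_bot] at hzm
      apply hz
      apply Subtype.ext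
      apply Subtype.ext
      exact hzm
    rcases hZ with h | h
    · exact absurd h hZne
    · intro x hx y hy
      have hy' : y ∈ P ⊓ Subgroup.centralizer (P : Set G) := by rw [h]; exact hy
      exact (Subgroup.mem_centralizer_iff.mp (Subgroup.mem_inf.mp hy').2) x hx
  -- P has exponent p
  have hexp : ∀ x ∈ P, x ^ p = 1 := by
    obtain ⟨Ω, hΩ⟩ : ∃ Ω : Subgroup G, ∀ x, x ∈ Ω ↔ x ∈ P ∧ x ^ p = 1 :=
      ⟨{ carrier := {x | x ∈ P ∧ x ^ p = 1}
         mul_mem' := by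
           rintro x y ⟨hx, hx'⟩ ⟨hy, hy'⟩
           exact ⟨P.mul_mem hx hy, by
             rw [(show Commute x y from hcomm x hx y hy).mul_pow, hx', hy', one_mul]⟩
         one_mem' := ⟨P.one_mem, one_pow p⟩
         inv_mem' := by
           rintro x ⟨hx, hx'⟩
           exact ⟨P.inv_mem hx, by rw [inv_pow, hx', inv_one]⟩ }, fun x => Iff.rfl⟩
    have hΩi := hirr Ω (fun x hx => ((hΩ x).mp hx).1)
      (by
        intro x hx q hq
        have h1 : x * q = q * x := hcomm x hx q ((hΩ q).mp hq).1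
        have e : x * q * x⁻¹ = q := by rw [h1]; group
        rw [e]; exact hq)
      (by
        intro q hq
        obtain ⟨hq1, hq2⟩ := (hΩ q).mp hq
        exact (hΩ _).mpr ⟨haP q hq1, by rw [conj_pow, hq2]; group⟩)
      (by
        intro q hq
        obtain ⟨hq1, hq2⟩ := (hΩ q).mp hq
        exact (hΩ _).mpr ⟨hbP q hq1, by rw [conj_pow, hq2]; group⟩)
    have hΩne : Ω ≠ ⊥ := by
      have hdvd : p ∣ Nat.card ↥P := by
        rcases hP.card_eq_or_dvd with h | h
        · exact absurd ((Subgroup.card_eq_one).mp h) hbot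
        · exact h
      obtain ⟨y, hy⟩ := exists_prime_orderOf_dvd_card' p hdvd
      intro h0
      have hym : (y : G) ∈ Ω := by
        refine (hΩ _).mpr ⟨y.2, ?_⟩
        have h1 : y ^ p = 1 := by rw [← hy]; exact pow_orderOf_eq_one y
        have h2 := congrArg Subtype.val h1
        simpa using h2
      rw [h0, Subgroup.mem_bot] at hym
      have hy1 : y = 1 := Subtype.ext hym
      rw [hy1, orderOf_one] at hy
      exact hpr.one_lt.ne hy
    rcases hΩi with h | h
    · exact absurd h hΩne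
    · intro x hx
      have hx' : x ∈ Ω := h ▸ hx
      exact ((hΩ x).mp hx').2
  -- set up the core
  have hPc : IsMulCommutative ↥P := ⟨⟨fun x y => Subtype.ext (hcomm x x.2 y y.2)⟩⟩
  obtain ⟨H, hH⟩ : ∃ H : Subgroup G, H = Subgroup.closure ({a, b} : Set G) := ⟨_, rfl⟩
  have hHP : ∀ h ∈ H, ∀ x ∈ P, h * x * h⁻¹ ∈ P := by
    intro h hh
    rw [hH] at hh
    exact closure_conj_mem haP hbP h hh
  have haH : a ∈ H := hH ▸ Subgroup.subset_closure (Set.mem_insert _ _)
  have hbH : b ∈ H := hH ▸ Subgroup.subset_closure (Set.mem_insert_of_mem _ rfl)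
  have hoddH : Odd (Nat.card H) := hodd.of_dvd_nat (Subgroup.card_subgroup_dvd_card H)
  have hpW : ∀ w : Additive ↥P, p • w = 0 := by
    intro w
    apply Additive.toMul.injective
    rw [toMul_nsmul, toMul_zero]
    apply Subtype.ext
    have := hexp _ (Additive.toMul w : ↥P).2
    simpa using this
  have hgen : Subgroup.closure ({⟨a, haH⟩, ⟨b, hbH⟩} : Set H) = ⊤ := by
    rw [eq_top_iff]
    rintro ⟨h, hh⟩ _
    have hh' : h ∈ Subgroup.closure ({a, b} : Set G) := hH ▸ hh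
    have key : ∀ (y : G) (hy : y ∈ Subgroup.closure ({a, b} : Set G)),
        (⟨y, hH ▸ hy⟩ : H) ∈ Subgroup.closure ({⟨a, haH⟩, ⟨b, hbH⟩} : Set H) := by
      intro y hy
      induction hy using Subgroup.closure_induction with
      | mem x hx =>
        apply Subgroup.subset_closure
        rcases hx with rfl | rfl
        · exact Set.mem_insert _ _
        · exact Set.mem_insert_of_mem _ rfl
      | one => exact Subgroup.one_mem _
      | mul x y hx hy ihx ihy => exact Subgroup.mul_mem _ ihx ihy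
      | inv x hx ihx => exact Subgroup.inv_mem _ ihx
    exact key h hh'
  have hρ1 : ∀ (h : H) (w : Additive ↥P),
      (((Additive.toMul ((conjEnd P H hHP h - 1) w)) : ↥P) : G) =
        (h : G) * ((Additive.toMul w : ↥P) : G) * (h : G)⁻¹ * ((Additive.toMul w : ↥P) : G)⁻¹ := by
    intro h w
    have e : (conjEnd P H hHP h - 1) w = conjEnd P H hHP h w - w := rfl
    rw [e, toMul_sub, Subgroup.coe_div, div_eq_mul_inv, conjEnd_apply]
  have hquad : ∀ (c : G) (hc : c ∈ H), (∀ x ∈ P, c * ⁅x, c⁆ = ⁅x, c⁆ * c) →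
      (conjEnd P H hHP ⟨c, hc⟩ - 1) * (conjEnd P H hHP ⟨c, hc⟩ - 1) = 0 := by
    intro c hc hq
    refine DFunLike.ext _ _ fun w => ?_
    apply Additive.toMul.injective
    apply Subtype.ext
    have e : ((conjEnd P H hHP ⟨c, hc⟩ - 1) * (conjEnd P H hHP ⟨c, hc⟩ - 1)) w =
        (conjEnd P H hHP ⟨c, hc⟩ - 1) ((conjEnd P H hHP ⟨c, hc⟩ - 1) w) := rfl
    rw [e, hρ1, hρ1]
    obtain ⟨x, hx⟩ : ∃ x : G, x = ((Additive.toMul w : ↥P) : G) := ⟨_, rfl⟩
    have hxP : x ∈ P := hx ▸ (Additive.toMul w : ↥P).2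
    rw [← hx]
    show c * (c * x * c⁻¹ * x⁻¹) * c⁻¹ * (c * x * c⁻¹ * x⁻¹)⁻¹ = 1
    have h1 := hq x hxP
    rw [commutatorElement_def] at h1
    have h2 : Commute c (x * c * x⁻¹ * c⁻¹) := h1
    have h3 : Commute c (x * c * x⁻¹ * c⁻¹)⁻¹ := h2.inv_right
    have e2 : (x * c * x⁻¹ * c⁻¹)⁻¹ = c * x * c⁻¹ * x⁻¹ := by group
    rw [e2] at h3
    rw [h3.eq]
    group
  have hcore := core hS hp hoddH hpW (conjEnd P H hHP) ⟨a, haH⟩ ⟨b, hbH⟩ hgen
    (by
      obtain ⟨k, hk⟩ := ha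
      exact ⟨k, Subtype.ext (by simpa using hk)⟩)
    (hquad a haH hqa) (hquad b hbH hqb)
    (by
      intro U hUa hUb
      have hQ := hirr ((AddSubgroup.toSubgroup' U).map P.subtype) (Subgroup.map_subtype_le _)
        (by
          intro x hx q hq
          obtain ⟨q0, hq0, rfl⟩ := Subgroup.mem_map.mp hq
          have h1 : x * (q0 : G) = (q0 : G) * x := hcomm x hx _ q0.2
          have e : x * P.subtype q0 * x⁻¹ = P.subtype q0 := by
            rw [Subgroup.coe_subtype, h1]; group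
          rw [e]; exact hq)
        (by
          intro q hq
          obtain ⟨q0, hq0, rfl⟩ := Subgroup.mem_map.mp hq
          refine Subgroup.mem_map.mpr ⟨Additive.toMul (conjEnd P H hHP ⟨a, haH⟩ (Additive.ofMul q0)),
            hUa _ hq0, ?_⟩
          rfl)
        (by
          intro q hq
          obtain ⟨q0, hq0, rfl⟩ := Subgroup.mem_map.mp hq
          refine Subgroup.mem_map.mpr ⟨Additive.toMul (conjEnd P H hHP ⟨b, hbH⟩ (Additive.ofMul q0)),
            hUb _ hq0, ?_⟩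
          rfl)
      rcases hQ with h | h
      · left
        have h1 : AddSubgroup.toSubgroup' U = ⊥ :=
          (Subgroup.map_eq_bot_iff_of_injective _ P.subtype_injective).mp h
        rw [eq_bot_iff]
        intro u hu
        have h2 : Additive.toMul u ∈ AddSubgroup.toSubgroup' U := hu
        rw [h1, Subgroup.mem_bot] at h2
        rw [AddSubgroup.mem_bot]
        exact Additive.toMul.injective h2
      · right
        rw [eq_top_iff]
        intro u _
        have h2 : ((Additive.toMul u : ↥P) : G) ∈ (AddSubgroup.toSubgroup' U).map P.subtype := by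
          rw [h]; exact (Additive.toMul u : ↥P).2
        obtain ⟨q0, hq0, hq1⟩ := Subgroup.mem_map.mp h2
        have h3 : q0 = Additive.toMul u := Subtype.ext hq1
        rw [h3] at hq0
        exact hq0)
  intro x hx
  have h1 := conjEnd_apply P H hHP ⟨a, haH⟩ (Additive.ofMul ⟨x, hx⟩)
  rw [hcore] at h1
  have h2 : x = a * x * a⁻¹ := h1
  calc a * x = a * x * a⁻¹ * a := by group
    _ = x * a := by rw [← h2]

end irr

section red

/-- the property to be proved, for a subgroup `P` of `G`. -/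
def QP (p : ℕ) (G : Type u) [Group G] (P : Subgroup G) : Prop :=
  ∀ (a b : G), (∀ x ∈ P, a * x * a⁻¹ ∈ P) → (∀ x ∈ P, b * x * b⁻¹ ∈ P) →
    (∃ k : ℕ, a ^ p ^ k = 1) → (∃ k : ℕ, b ^ p ^ k = 1) →
    (∀ x ∈ P, a * ⁅x, a⁆ = ⁅x, a⁆ * a) → (∀ x ∈ P, b * ⁅x, b⁆ = ⁅x, b⁆ * b) →
    ∀ h ∈ Subgroup.closure ({a, b} : Set G), (orderOf h).Coprime p → ∀ x ∈ P, h * x = x * h

variable {G : Type u} [Group G]

theorem step_red {p : ℕ} (P Q N : Subgroup G) [hQN : (Q.subgroupOf N).Normal]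
    (hP : IsPGroup p P) (hQP : Q ≤ P) (hPN : P ≤ N)
    (a b : G) (haN : a ∈ N) (hbN : b ∈ N)
    (haP : ∀ x ∈ P, a * x * a⁻¹ ∈ P) (hbP : ∀ x ∈ P, b * x * b⁻¹ ∈ P)
    (haQ : ∀ q ∈ Q, a * q * a⁻¹ ∈ Q) (hbQ : ∀ q ∈ Q, b * q * b⁻¹ ∈ Q)
    (ha : ∃ k : ℕ, a ^ p ^ k = 1) (hb : ∃ k : ℕ, b ^ p ^ k = 1)
    (hqa : ∀ x ∈ P, a * ⁅x, a⁆ = ⁅x, a⁆ * a) (hqb : ∀ x ∈ P, b * ⁅x, b⁆ = ⁅x, b⁆ * b)
    (h1 : QP p G Q)
    (h2 : QP p (↥N ⧸ Q.subgroupOf N)
      ((P.subgroupOf N).map (QuotientGroup.mk' (Q.subgroupOf N)))) :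
    ∀ h ∈ Subgroup.closure ({a, b} : Set G), (orderOf h).Coprime p →
      ∀ x ∈ P, h * x = x * h := by
  classical
  obtain ⟨π, hπ⟩ : ∃ π : ↥N →* ↥N ⧸ Q.subgroupOf N, π = QuotientGroup.mk' (Q.subgroupOf N) :=
    ⟨_, rfl⟩
  rw [← hπ] at h2
  have hconj : ∀ (c : G) (hc : c ∈ N), (∀ x ∈ P, c * x * c⁻¹ ∈ P) →
      ∀ y ∈ (P.subgroupOf N).map π, π ⟨c, hc⟩ * y * (π ⟨c, hc⟩)⁻¹ ∈ (P.subgroupOf N).map π := by
    intro c hc hcP y hy
    obtain ⟨x, hx, rfl⟩ := Subgroup.mem_map.mp hy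
    refine Subgroup.mem_map.mpr ⟨⟨c, hc⟩ * x * ⟨c, hc⟩⁻¹, ?_, by simp⟩
    rw [Subgroup.mem_subgroupOf] at hx ⊢
    exact hcP _ hx
  have hpow : ∀ (c : G) (hc : c ∈ N), (∃ k : ℕ, c ^ p ^ k = 1) →
      ∃ k : ℕ, (π ⟨c, hc⟩) ^ p ^ k = 1 := by
    intro c hc hck
    obtain ⟨k, hk⟩ := hck
    refine ⟨k, ?_⟩
    rw [← map_pow]
    have h3 : (⟨c, hc⟩ : ↥N) ^ p ^ k = 1 := Subtype.ext (by simpa using hk)
    rw [h3, map_one]
  have hquad : ∀ (c : G) (hc : c ∈ N), (∀ x ∈ P, c * ⁅x, c⁆ = ⁅x, c⁆ * c) →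
      ∀ y ∈ (P.subgroupOf N).map π, π ⟨c, hc⟩ * ⁅y, π ⟨c, hc⟩⁆ = ⁅y, π ⟨c, hc⟩⁆ * π ⟨c, hc⟩ := by
    intro c hc hq y hy
    obtain ⟨x, hx, rfl⟩ := Subgroup.mem_map.mp hy
    rw [← map_commutatorElement, ← map_mul, ← map_mul]
    congr 1
    apply Subtype.ext
    rw [Subgroup.mem_subgroupOf] at hx
    exact hq _ hx
  have h2' := h2 (π ⟨a, haN⟩) (π ⟨b, hbN⟩) (hconj a haN haP) (hconj b hbN hbP)
    (hpow a haN ha) (hpow b hbN hb) (hquad a haN hqa) (hquad b hbN hqb)
  have key : ∀ h ∈ Subgroup.closure ({a, b} : Set G), ∃ hN : h ∈ N,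
      π ⟨h, hN⟩ ∈ Subgroup.closure ({π ⟨a, haN⟩, π ⟨b, hbN⟩} : Set (↥N ⧸ Q.subgroupOf N)) := by
    intro h hh
    induction hh using Subgroup.closure_induction with
    | mem x hx =>
      rcases hx with rfl | rfl
      · exact ⟨haN, Subgroup.subset_closure (Set.mem_insert _ _)⟩
      · exact ⟨hbN, Subgroup.subset_closure (Set.mem_insert_of_mem _ rfl)⟩
    | one =>
      refine ⟨N.one_mem, ?_⟩
      have e : (⟨1, N.one_mem⟩ : ↥N) = 1 := rfl
      rw [e, map_one]
      exact Subgroup.one_mem _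
    | mul x y _ _ ihx ihy =>
      obtain ⟨hxN, hx⟩ := ihx
      obtain ⟨hyN, hy⟩ := ihy
      refine ⟨N.mul_mem hxN hyN, ?_⟩
      have e : (⟨x * y, N.mul_mem hxN hyN⟩ : ↥N) = ⟨x, hxN⟩ * ⟨y, hyN⟩ := rfl
      rw [e, map_mul]
      exact Subgroup.mul_mem _ hx hy
    | inv x _ ihx =>
      obtain ⟨hxN, hx⟩ := ihx
      refine ⟨N.inv_mem hxN, ?_⟩
      have e : (⟨x⁻¹, N.inv_mem hxN⟩ : ↥N) = ⟨x, hxN⟩⁻¹ := rfl
      rw [e, map_inv]
      exact Subgroup.inv_mem _ hx
  intro h hh hcop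
  have hcQ : ∀ q ∈ Q, h * q = q * h :=
    h1 a b haQ hbQ ha hb (fun x hx => hqa x (hQP hx)) (fun x hx => hqb x (hQP hx)) h hh hcop
  obtain ⟨hN, hmem⟩ := key h hh
  have hcop' : (orderOf (π ⟨h, hN⟩)).Coprime p := by
    have h3 : orderOf (π ⟨h, hN⟩) ∣ orderOf h := by
      have h4 := orderOf_map_dvd π (⟨h, hN⟩ : ↥N)
      rwa [Subgroup.orderOf_mk] at h4
    exact Nat.Coprime.coprime_dvd_left h3 hcop
  have hPQ : ∀ x ∈ P, h * x * h⁻¹ * x⁻¹ ∈ Q := by
    intro x hx
    have h3 := h2' _ hmem hcop' (π ⟨x, hPN hx⟩)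
      (Subgroup.mem_map.mpr ⟨⟨x, hPN hx⟩, Subgroup.mem_subgroupOf.mpr hx, rfl⟩)
    have h4 : π ((⟨h, hN⟩ : ↥N) * ⟨x, hPN hx⟩ * ⟨h, hN⟩⁻¹ * ⟨x, hPN hx⟩⁻¹) = 1 := by
      rw [map_mul, map_mul, map_mul, h3, map_inv, map_inv]
      group
    rw [hπ, QuotientGroup.mk'_apply, QuotientGroup.eq_one_iff, Subgroup.mem_subgroupOf] at h4
    exact h4
  exact centralizes_of_chain hP hQP hcop hcQ hPQ

end red

section main

/-- **Quadratic pairs.** -/
theorem quad_pair (hS : S1463Stmt) {p : ℕ} [Fact p.Prime] (hp : p ≠ 2) :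
    ∀ (n : ℕ) (G : Type u) [Group G] [Finite G], Odd (Nat.card G) →
      ∀ (P : Subgroup G), Nat.card P = n → IsPGroup p P → QP p G P := by
  intro n
  induction n using Nat.strong_induction_on with
  | _ n IH =>
    intro G _ _ hodd P hn hP a b haP hbP ha hb hqa hqb
    classical
    by_cases hred : ∃ Q : Subgroup G, Q ≤ P ∧ Q ≠ ⊥ ∧ Q ≠ P ∧
        (∀ x ∈ P, ∀ q ∈ Q, x * q * x⁻¹ ∈ Q) ∧
        (∀ q ∈ Q, a * q * a⁻¹ ∈ Q) ∧ (∀ q ∈ Q, b * q * b⁻¹ ∈ Q)
    · obtain ⟨Q, hQP, hQbot, hQne, hQn, haQ, hbQ⟩ := hred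
      have hlt : Nat.card Q < n := by
        rw [← hn]
        by_contra hcon
        push Not at hcon
        exact hQne (Subgroup.eq_of_le_of_card_ge hQP hcon)
      have haN : a ∈ Subgroup.normalizer (Q : Set G) := mem_normalizer_of_conj haQ
      have hbN : b ∈ Subgroup.normalizer (Q : Set G) := mem_normalizer_of_conj hbQ
      have hPN : P ≤ Subgroup.normalizer (Q : Set G) :=
        fun x hx => mem_normalizer_of_conj (hQn x hx)
      have hQN : Q ≤ Subgroup.normalizer (Q : Set G) := Subgroup.le_normalizer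
      refine step_red P Q (Subgroup.normalizer (Q : Set G)) hP hQP hPN a b haN hbN haP hbP
        haQ hbQ ha hb hqa hqb ?_ ?_
      · exact IH (Nat.card Q) hlt G hodd Q rfl (hP.to_le hQP)
      · refine IH _ ?_ _ ?_ _ rfl ?_
        · -- the image of P has smaller order
          rw [← hn]
          have e1 : Nat.card (P.subgroupOf (Subgroup.normalizer (Q : Set G))) = Nat.card P :=
            Nat.card_congr (Subgroup.subgroupOfEquivOfLe hPN).toEquiv
          rw [← e1]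
          have : Fintype (P.subgroupOf (Subgroup.normalizer (Q : Set G))) := Fintype.ofFinite _
          have : Fintype ((P.subgroupOf (Subgroup.normalizer (Q : Set G))).map
            (QuotientGroup.mk' (Q.subgroupOf (Subgroup.normalizer (Q : Set G))))) :=
              Fintype.ofFinite _
          rw [Nat.card_eq_fintype_card, Nat.card_eq_fintype_card]
          apply Fintype.card_lt_of_surjective_not_injective
            ((QuotientGroup.mk' (Q.subgroupOf (Subgroup.normalizer (Q : Set G)))).subgroupMap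
              (P.subgroupOf (Subgroup.normalizer (Q : Set G))))
            (MonoidHom.subgroupMap_surjective _ _)
          intro hinj
          obtain ⟨q, hq⟩ := (Subgroup.ne_bot_iff_exists_ne_one).mp hQbot
          have hqm : (⟨(q : G), hQN q.2⟩ : ↥(Subgroup.normalizer (Q : Set G))) ∈
              P.subgroupOf (Subgroup.normalizer (Q : Set G)) :=
            Subgroup.mem_subgroupOf.mpr (hQP q.2)
          have h3 : (QuotientGroup.mk' (Q.subgroupOf (Subgroup.normalizer (Q : Set G)))).subgroupMap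
              (P.subgroupOf (Subgroup.normalizer (Q : Set G))) ⟨_, hqm⟩ =
              (QuotientGroup.mk' (Q.subgroupOf (Subgroup.normalizer (Q : Set G)))).subgroupMap
              (P.subgroupOf (Subgroup.normalizer (Q : Set G))) 1 := by
            rw [map_one]
            apply Subtype.ext
            show QuotientGroup.mk' (Q.subgroupOf (Subgroup.normalizer (Q : Set G)))
              (⟨(q : G), hQN q.2⟩ : ↥(Subgroup.normalizer (Q : Set G))) = 1
            rw [QuotientGroup.mk'_apply, QuotientGroup.eq_one_iff, Subgroup.mem_subgroupOf]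
            exact q.2
          have h4 := hinj h3
          apply hq
          apply Subtype.ext
          have h5 := congrArg (fun z : ↥(P.subgroupOf (Subgroup.normalizer (Q : Set G))) =>
            ((z : ↥(Subgroup.normalizer (Q : Set G))) : G)) h4
          exact h5
        · exact hodd.of_dvd_nat ((Subgroup.card_quotient_dvd_card _).trans
            (Subgroup.card_subgroup_dvd_card _))
        · exact (hP.comap_subtype).map _
    · push Not at hred
      have hirr : ∀ Q : Subgroup G, Q ≤ P → (∀ x ∈ P, ∀ q ∈ Q, x * q * x⁻¹ ∈ Q) →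
          (∀ q ∈ Q, a * q * a⁻¹ ∈ Q) → (∀ q ∈ Q, b * q * b⁻¹ ∈ Q) → Q = ⊥ ∨ Q = P := by
        intro Q h1 h2 h3 h4
        by_contra hcon
        push Not at hcon
        obtain ⟨q, hq, hq'⟩ := hred Q h1 hcon.1 hcon.2 h2 h3
        exact hq' (h4 q hq)
      have hca := step_irr hS hp hodd P hP a b haP hbP ha hqa hqb hirr
      have hcb := step_irr hS hp hodd P hP b a hbP haP hb hqb hqa
        (fun Q h1 h2 h3 h4 => hirr Q h1 h2 h4 h3)
      have hle : Subgroup.closure ({a, b} : Set G) ≤ Subgroup.centralizer (P : Set G) := by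
        rw [Subgroup.closure_le]
        intro y hy
        rcases hy with rfl | rfl
        · exact Subgroup.mem_centralizer_iff.mpr (fun x hx => (hca x hx).symm)
        · exact Subgroup.mem_centralizer_iff.mpr (fun x hx => (hcb x hx).symm)
      intro h hh _ x hx
      exact ((Subgroup.mem_centralizer_iff.mp (hle hh)) x hx).symm

end main

end Cfsg.Agent.Lib.Helper9.QuadOdd2
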