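import Mathlib
import Cfsg.Agent.Lib.Helper39.TLStmt
import Cfsg.Agent.Lib.Helper9.QuadOdd2

/-!
# S4404, piece PW3: two reflections in a 3-group with different `W`'s

Route (no orbit counting): `L = ⟨x, y⟩` is nilpotent, so normalizers grow.  If `N_L(W₂) < L`, some
`g ∈ N_L(N_L(W₂))` lies outside `N_L(W₂)`; the conjugates `g W₂ g⁻¹` and `g⁻¹ W₂ g` are four-groups
normalized by `y` and different from `W₂`, hence centralized by `y` (`dich`), and they lie in
`U = W₁ W₂`; but `C_U(y)` has order at most 4, so both equal `C_U(y)`; then `g ^ 2` normalizes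
`W₂`, and so does `g` (odd order).  Hence `x` normalizes `W₂` and `dich` for `x` ends the proof.
-/

set_option autoImplicit false

namespace Cfsg.Agent.Lib.Helper9.TLPW3

open Cfsg Cfsg.Agent.Lib.Helper39.TLStmt Cfsg.Agent.Lib.Helper9.QuadOdd2

universe u

variable {S : Type u} [Group S] [Finite S]

omit [Finite S] in
theorem comm_of {M : Subgroup S} (hM : IsElementaryAbelian 2 M) {a b : S} (ha : a ∈ M)
    (hb : b ∈ M) : a * b = b * a :=
  congrArg Subtype.val (hM.1.is_comm.comm ⟨a, ha⟩ ⟨b, hb⟩)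

/-- Dichotomy: a four-group `D ≤ M` invariant under a reflection `x` is centralized by `x` or
equal to `W`. -/
theorem dich {M : Subgroup S} (_hM : IsElementaryAbelian 2 M) {x : S} {W : Subgroup S}
    (hx : IsRefl M x W) (D : Subgroup S) (hDM : D ≤ M) (hD4 : Nat.card D = 4)
    (hinv : ∀ d ∈ D, x * d * x⁻¹ ∈ D) :
    (∀ d ∈ D, x * d * x⁻¹ = d) ∨ D = W := by
  by_cases hall : ∀ d ∈ D, x * d * x⁻¹ = d
  · exact Or.inl hall
  right
  obtain ⟨e, hall1⟩ := not_forall.mp hall
  obtain ⟨he, hne⟩ := Classical.not_imp.mp hall1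
  obtain ⟨c, hc⟩ : ∃ c : S, c = x * e * x⁻¹ * e⁻¹ := ⟨_, rfl⟩
  have hcW : c ∈ W := by rw [hc]; exact hx.comm e (hDM he)
  have hcD : c ∈ D := by rw [hc]; exact D.mul_mem (hinv e he) (D.inv_mem he)
  have hc1 : c ≠ 1 := by
    intro h
    apply hne
    calc x * e * x⁻¹ = x * e * x⁻¹ * e⁻¹ * e := by group
      _ = e := by rw [← hc, h, one_mul]
  have hτcW : x * c * x⁻¹ ∈ W := by
    have h1 := hx.comm c (hx.le hcW)
    have h2 := W.mul_mem h1 hcW
    have e1 : x * c * x⁻¹ * c⁻¹ * c = x * c * x⁻¹ := by group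
    rwa [e1] at h2
  have hτcD : x * c * x⁻¹ ∈ D := hinv c hcD
  have hτc1 : x * c * x⁻¹ ≠ 1 := by
    intro h
    apply hc1
    calc c = x⁻¹ * (x * c * x⁻¹) * x := by group
      _ = 1 := by rw [h]; group
  have hτcc : x * c * x⁻¹ ≠ c := fun h => hc1 (hx.fix c hcW h)
  have h3 : 2 < Nat.card ↥(D ⊓ W) := by
    classical
    have := Fintype.ofFinite ↥(D ⊓ W)
    rw [Nat.card_eq_fintype_card, ← Finset.card_univ]
    refine Finset.two_lt_card_iff.mpr ⟨1, ⟨c, hcD, hcW⟩, ⟨x * c * x⁻¹, hτcD, hτcW⟩,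
      Finset.mem_univ _, Finset.mem_univ _, Finset.mem_univ _, ?_, ?_, ?_⟩
    · intro h; exact hc1 (congrArg Subtype.val h).symm
    · intro h; exact hτc1 (congrArg Subtype.val h).symm
    · intro h; exact hτcc (congrArg Subtype.val h).symm
  have hdvd : Nat.card ↥(D ⊓ W) ∣ 4 := by
    rw [← hD4]; exact Subgroup.card_dvd_of_le inf_le_left
  have h4 : Nat.card ↥(D ⊓ W) = 4 := by
    have hle := Nat.le_of_dvd (by norm_num) hdvd
    obtain ⟨n, hn⟩ : ∃ n, n = Nat.card ↥(D ⊓ W) := ⟨_, rfl⟩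
    rw [← hn] at h3 hdvd hle ⊢
    interval_cases n
    · exact absurd hdvd (by decide)
    · rfl
  have hDle : D ≤ D ⊓ W := by
    have h5 := Subgroup.eq_of_le_of_card_ge (inf_le_left : D ⊓ W ≤ D) (by rw [hD4, h4])
    rw [h5]
  have hDW : D ≤ W := fun d hd => (hDle hd).2
  exact Subgroup.eq_of_le_of_card_ge hDW (by rw [hD4, hx.card])

/-- The reflection `x` normalizes `W₂`. -/
theorem core {M : Subgroup S} [M.Normal] (hM : IsElementaryAbelian 2 M) {R : Subgroup S}
    (hR : IsPGroup 3 ↥R) {x y : S} {W₁ W₂ : Subgroup S} (hxR : x ∈ R) (hyR : y ∈ R)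
    (hx : IsRefl M x W₁) (hy : IsRefl M y W₂) :
    ∀ w ∈ W₂, x * w * x⁻¹ ∈ W₂ := by
  classical
  obtain ⟨U, hU⟩ : ∃ U : Subgroup S, U = W₁ ⊔ W₂ := ⟨_, rfl⟩
  have hUM : U ≤ M := by rw [hU]; exact sup_le hx.le hy.le
  have hW₁U : W₁ ≤ U := by rw [hU]; exact le_sup_left
  have hW₂U : W₂ ≤ U := by rw [hU]; exact le_sup_right
  have hUprod : ∀ u ∈ U, ∃ a ∈ W₁, ∃ b ∈ W₂, u = a * b := by
    intro u hu
    have hLE : W₁ ≤ Subgroup.normalizer (W₂ : Set S) := by
      intro a ha
      apply mem_normalizer_of_conj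
      intro w hw
      have h0 : a * w * a⁻¹ = w := by
        rw [comm_of hM (hx.le ha) (hy.le hw)]; group
      rw [h0]; exact hw
    have h1 := Subgroup.coe_mul_of_left_le_normalizer_right W₁ W₂ hLE
    have h2 : u ∈ ((W₁ ⊔ W₂ : Subgroup S) : Set S) := by rw [← hU]; exact hu
    rw [h1] at h2
    obtain ⟨a, ha, b, hb, hab⟩ := Set.mem_mul.mp h2
    exact ⟨a, ha, b, hb, hab.symm⟩
  have hxU : ∀ u ∈ U, x * u * x⁻¹ ∈ U := by
    intro u hu
    have h1 := hW₁U (hx.comm u (hUM hu))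
    have h2 := U.mul_mem h1 hu
    have e1 : x * u * x⁻¹ * u⁻¹ * u = x * u * x⁻¹ := by group
    rwa [e1] at h2
  have hyU : ∀ u ∈ U, y * u * y⁻¹ ∈ U := by
    intro u hu
    have h1 := hW₂U (hy.comm u (hUM hu))
    have h2 := U.mul_mem h1 hu
    have e1 : y * u * y⁻¹ * u⁻¹ * u = y * u * y⁻¹ := by group
    rwa [e1] at h2
  have hyW : ∀ w ∈ W₂, y * w * y⁻¹ ∈ W₂ := by
    intro w hw
    have h1 := hy.comm w (hy.le hw)
    have h2 := W₂.mul_mem h1 hw
    have e1 : y * w * y⁻¹ * w⁻¹ * w = y * w * y⁻¹ := by group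
    rwa [e1] at h2
  obtain ⟨L, hL⟩ : ∃ L : Subgroup S, L = Subgroup.closure ({x, y} : Set S) := ⟨_, rfl⟩
  have hLU : ∀ g ∈ L, ∀ u ∈ U, g * u * g⁻¹ ∈ U := by
    rw [hL]; exact closure_conj_mem hxU hyU
  have hxL : x ∈ L := by rw [hL]; exact Subgroup.subset_closure (by simp)
  have hyL : y ∈ L := by rw [hL]; exact Subgroup.subset_closure (by simp)
  have hLR : L ≤ R := by
    rw [hL, Subgroup.closure_le]
    intro z hz
    rcases hz with rfl | rfl
    · exact hxR
    · exact hyR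
  have hLp : IsPGroup 3 ↥L := hR.to_le hLR
  have hp3 : Fact (Nat.Prime 3) := ⟨Nat.prime_three⟩
  have hnil : Group.IsNilpotent ↥L := hLp.isNilpotent
  have hNC := Group.normalizerCondition_of_isNilpotent (G := ↥L)
  obtain ⟨C, hC⟩ : ∃ C : Subgroup S, C = U ⊓ Subgroup.centralizer ({y} : Set S) := ⟨_, rfl⟩
  have hCle : C ≤ U ⊓ Subgroup.centralizer ({y} : Set S) := le_of_eq hC
  have hCcard : Nat.card C ≤ 4 := by
    have hdec : ∀ u : ↥C, ∃ a : ↥W₁, ∃ b ∈ W₂, (u : S) = a * b := by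
      intro u
      have hu : (u : S) ∈ U := (hCle u.2).1
      obtain ⟨a, ha, b, hb, hab⟩ := hUprod u hu
      exact ⟨⟨a, ha⟩, b, hb, hab⟩
    choose f hf using hdec
    have hcen : ∀ u : ↥C, Commute y (u : S) := by
      intro u
      exact Subgroup.mem_centralizer_iff.mp (hCle u.2).2 y rfl
    have hinj : Function.Injective f := by
      intro u u' h
      obtain ⟨b, hb, e⟩ := hf u
      obtain ⟨b', hb', e'⟩ := hf u'
      rw [h] at e
      have e1 : b⁻¹ * b' = (u : S)⁻¹ * u' := by rw [e, e']; group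
      have hcm : Commute y (b⁻¹ * b') := by
        rw [e1]; exact (hcen u).inv_right.mul_right (hcen u')
      have hbb : y * (b⁻¹ * b') * y⁻¹ = b⁻¹ * b' := mul_inv_eq_of_eq_mul hcm.eq
      have h1 := hy.fix (b⁻¹ * b') (W₂.mul_mem (W₂.inv_mem hb) hb') hbb
      have h2 : b' = b := by
        calc b' = b * (b⁻¹ * b') := by group
          _ = b := by rw [h1, mul_one]
      apply Subtype.ext
      rw [e, e', h2]
    calc Nat.card C ≤ Nat.card W₁ := Nat.card_le_card_of_injective f hinj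
      _ = 4 := hx.card
  have hxN : x ∈ Subgroup.normalizer (W₂ : Set S) := by
    obtain ⟨H, hH⟩ : ∃ H : Subgroup ↥L,
        H = (Subgroup.normalizer (W₂ : Set S)).subgroupOf L := ⟨_, rfl⟩
    by_cases htop : H = ⊤
    · have h0 : (⟨x, hxL⟩ : ↥L) ∈ H := by rw [htop]; exact Subgroup.mem_top _
      rw [hH, Subgroup.mem_subgroupOf] at h0
      exact h0
    exfalso
    have hlt : H < ⊤ := lt_top_iff_ne_top.mpr htop
    obtain ⟨g, hgN, hgH⟩ := SetLike.exists_of_lt (hNC H hlt)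
    have hyH : (⟨y, hyL⟩ : ↥L) ∈ H := by
      rw [hH, Subgroup.mem_subgroupOf]
      exact mem_normalizer_of_conj hyW
    have h1 : g * ⟨y, hyL⟩ * g⁻¹ ∈ H := (Subgroup.mem_normalizer_iff.mp hgN _).mp hyH
    have h2 : g⁻¹ * ⟨y, hyL⟩ * g ∈ H := (Subgroup.mem_normalizer_iff''.mp hgN _).mp hyH
    rw [hH, Subgroup.mem_subgroupOf] at h1 h2
    have h1' : (g : S) * y * (g : S)⁻¹ ∈ Subgroup.normalizer (W₂ : Set S) := by simpa using h1
    have h2' : (g : S)⁻¹ * y * (g : S) ∈ Subgroup.normalizer (W₂ : Set S) := by simpa using h2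
    have hgnot : (g : S) ∉ Subgroup.normalizer (W₂ : Set S) := by
      intro h
      apply hgH
      rw [hH, Subgroup.mem_subgroupOf]
      exact h
    have key : ∀ k : S, k ∈ L → k⁻¹ * y * k ∈ Subgroup.normalizer (W₂ : Set S) →
        k ∉ Subgroup.normalizer (W₂ : Set S) → W₂.map (MulAut.conj k).toMonoidHom = C := by
      intro k hkL hk hknot
      have hcard : Nat.card ↥(W₂.map (MulAut.conj k).toMonoidHom) = 4 := by
        rw [Subgroup.card_map_of_injective (MulAut.conj k).injective]; exact hy.card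
      have hDM : W₂.map (MulAut.conj k).toMonoidHom ≤ M := by
        rintro _ ⟨w, hw, rfl⟩
        exact (inferInstance : M.Normal).conj_mem w (hy.le hw) k
      have hinv : ∀ d ∈ W₂.map (MulAut.conj k).toMonoidHom,
          y * d * y⁻¹ ∈ W₂.map (MulAut.conj k).toMonoidHom := by
        rintro _ ⟨w, hw, rfl⟩
        refine ⟨(k⁻¹ * y * k) * w * (k⁻¹ * y * k)⁻¹,
          (Subgroup.mem_normalizer_iff.mp hk w).mp hw, ?_⟩
        simp only [MulEquiv.coe_toMonoidHom, MulAut.conj_apply]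
        group
      rcases dich hM hy _ hDM hcard hinv with hcen | heq
      · apply Subgroup.eq_of_le_of_card_ge
        · intro d hd
          rw [hC]
          refine ⟨?_, ?_⟩
          · obtain ⟨w, hw, rfl⟩ := hd
            exact hLU k hkL w (hW₂U hw)
          · refine Subgroup.mem_centralizer_iff.mpr ?_
            intro z hz
            rw [Set.mem_singleton_iff] at hz
            rw [hz]
            have h0 := hcen d hd
            calc y * d = y * d * y⁻¹ * y := by group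
              _ = d * y := by rw [h0]
        · rw [hcard]; exact hCcard
      · exfalso
        apply hknot
        apply mem_normalizer_of_conj
        intro w hw
        rw [← heq]
        exact ⟨w, hw, rfl⟩
    have e1 := key (g : S) g.2 h2' hgnot
    have hginv : ((g : S)⁻¹)⁻¹ * y * (g : S)⁻¹ ∈ Subgroup.normalizer (W₂ : Set S) := by
      rw [inv_inv]; exact h1'
    have hginvnot : (g : S)⁻¹ ∉ Subgroup.normalizer (W₂ : Set S) := by
      intro h
      apply hgnot
      have h0 := Subgroup.inv_mem _ h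
      rwa [inv_inv] at h0
    have e2 := key (g : S)⁻¹ (L.inv_mem g.2) hginv hginvnot
    have hsq : ∀ w ∈ W₂, ((g : S) * g) * w * ((g : S) * g)⁻¹ ∈ W₂ := by
      intro w hw
      have h3 : (g : S) * w * (g : S)⁻¹ ∈ W₂.map (MulAut.conj (g : S)⁻¹).toMonoidHom := by
        rw [e2, ← e1]; exact ⟨w, hw, rfl⟩
      obtain ⟨v, hv, hveq⟩ := h3
      have hveq' : (g : S)⁻¹ * v * ((g : S)⁻¹)⁻¹ = (g : S) * w * (g : S)⁻¹ := hveq
      have h4 : ((g : S) * g) * w * ((g : S) * g)⁻¹ = v := by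
        calc ((g : S) * g) * w * ((g : S) * g)⁻¹
            = (g : S) * ((g : S) * w * (g : S)⁻¹) * (g : S)⁻¹ := by group
          _ = (g : S) * ((g : S)⁻¹ * v * ((g : S)⁻¹)⁻¹) * (g : S)⁻¹ := by rw [hveq']
          _ = v := by group
      rw [h4]; exact hv
    obtain ⟨k, hk⟩ := hR ⟨(g : S), hLR g.2⟩
    have hk' : (g : S) ^ 3 ^ k = 1 := by
      have h0 := congrArg Subtype.val hk
      simpa using h0
    have hodd : ((g : S) * g) ^ ((3 ^ k + 1) / 2) = g := by
      have h2 : 2 * ((3 ^ k + 1) / 2) = 3 ^ k + 1 := by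
        have h0 : Odd (3 ^ k) := Odd.pow (by decide)
        obtain ⟨m, hm⟩ := h0
        omega
      rw [← pow_two, ← pow_mul, h2, pow_succ, hk', one_mul]
    apply hgnot
    apply mem_normalizer_of_conj
    intro w hw
    have h0 := pow_conj_mem hsq ((3 ^ k + 1) / 2) w hw
    rwa [hodd] at h0
  intro w hw
  exact (Subgroup.mem_normalizer_iff.mp hxN w).mp hw

/-- PW3 (the hypothesis `Cop` is not needed on this route). -/
theorem main (_hCop : Cop.{u}) : PW3.{u} := by
  intro S _ _ M _ hM R hR x y W₁ W₂ hxR hyR hx hy hne w hw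
  have hnorm := core hM hR hxR hyR hx hy
  rcases dich hM hx W₂ hy.le hy.card hnorm with h | h
  · exact h w hw
  · exact absurd h.symm hne

end Cfsg.Agent.Lib.Helper9.TLPW3
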